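import Cfsg.Agent.E8A.Mc.Sol

/-!
# A module machine in characteristic two: alternating groups of degree at most ten (helper42)

The letters `0, …, 4` are the cycles `(0 1 2)`, `(2 3 4 5 6)`, `(5 6 7)`, `(6 7 8)`, `(7 8 9)`; the first `k` generate
the alternating group of degree `k + 5` for `k ≥ 2`.

* `okA k` : two words in the first `k` letters give the same permutation; `okA_sound`, `good_res`.
-/

set_option autoImplicit false

namespace Cfsg.Agent.E8A.Mc

open Module

universe u

/-- a cycle acts on the digits -/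
def cy (p a b s c : ℕ) : ℕ :=
  Nat.lor (Nat.lor (Nat.land p a) (Nat.land (Nat.shiftRight p 4) b)) (Nat.land (Nat.shiftLeft p s) c)

/-- the product with a letter -/
noncomputable def stp (p j : ℕ) : ℕ :=
  Nat.rec (motive := fun _ => ℕ) (cy p 0xfffffff000 0xff 8 0xf00) (fun j _ =>
    Nat.rec (motive := fun _ => ℕ) (cy p 0xfff00000ff 0xffff00 16 0xf000000) (fun j _ =>
      Nat.rec (motive := fun _ => ℕ) (cy p 0xff000fffff 0xff00000 8 0xf0000000) (fun j _ =>
        Nat.rec (motive := fun _ => ℕ) (cy p 0xf000ffffff 0xff000000 8 0xf00000000) (fun _ _ =>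
          cy p 0xfffffff 0xff0000000 8 0xf000000000) j) j) j) j

/-- the permutation of a word, in base 16 -/
noncomputable def pk (w : List ℕ) : ℕ → ℕ :=
  List.rec (motive := fun _ => ℕ → ℕ) (fun p => p) (fun j _ ih p => force (stp p j) ih) w

/-- two words in the first `k` letters give the same permutation -/
noncomputable def okA (k : ℕ) (w w' : List ℕ) : Bool :=
  Nat.beq (pk w 0x9876543210) (pk w' 0x9876543210) && ltW k w && ltW k w'

/-- the letters as functions -/
def gp (j x : ℕ) : ℕ :=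
  (([[1, 2, 0, 3, 4, 5, 6, 7, 8, 9], [0, 1, 3, 4, 5, 6, 2, 7, 8, 9], [0, 1, 2, 3, 4, 6, 7, 5, 8, 9],
    [0, 1, 2, 3, 4, 5, 7, 8, 6, 9], [0, 1, 2, 3, 4, 5, 6, 8, 9, 7]] : List (List ℕ)).getD j []).getD x 0

/-- a digit -/
def dig (p x : ℕ) : ℕ := (p >>> (4 * x)) % 2 ^ 4

theorem testBit_cy {a b s c i t : ℕ} (h : (a.testBit i = true ∧ b.testBit i = false ∧ c.testBit i = false ∧ t = i) ∨
    (a.testBit i = false ∧ b.testBit i = true ∧ c.testBit i = false ∧ t = 4 + i) ∨
    (a.testBit i = false ∧ b.testBit i = false ∧ c.testBit i = true ∧ s ≤ i ∧ t = i - s)) (p : ℕ) :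
    (cy p a b s c).testBit i = p.testBit t := by
  have e : cy p a b s c = ((p &&& a) ||| ((p >>> 4) &&& b)) ||| ((p <<< s) &&& c) := rfl
  rw [e, Nat.testBit_or, Nat.testBit_or, Nat.testBit_and, Nat.testBit_and, Nat.testBit_and, Nat.testBit_shiftRight,
    Nat.testBit_shiftLeft]
  rcases h with ⟨h1, h2, h3, rfl⟩ | ⟨h1, h2, h3, rfl⟩ | ⟨h1, h2, h3, h4, rfl⟩ <;> simp [*]

theorem dig_stp (p : ℕ) {j x : ℕ} (hj : j < 5) (hx : x < 10) : dig (stp p j) x = dig p (gp j x) := by
  refine Nat.eq_of_testBit_eq fun b => ?_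
  rw [dig, dig, Nat.testBit_mod_two_pow, Nat.testBit_mod_two_pow, Nat.testBit_shiftRight, Nat.testBit_shiftRight]
  by_cases hb : b < 4
  · refine congrArg _ ?_
    interval_cases j
    all_goals
      refine testBit_cy ?_ p
      revert x b
      decide +kernel
  · rw [decide_eq_false hb, Bool.false_and, Bool.false_and]

theorem okA_lt {k : ℕ} {w w' : List ℕ} (h : okA k w w' = true) : ltW k w = true ∧ ltW k w' = true := by
  rw [okA, Bool.and_eq_true, Bool.and_eq_true] at h
  exact ⟨h.1.2, h.2⟩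

theorem okA_mono {k k' : ℕ} (hk : k ≤ k') {w w' : List ℕ} (h : okA k w w' = true) : okA k' w w' = true := by
  rw [okA, Bool.and_eq_true, Bool.and_eq_true] at h ⊢
  exact ⟨⟨h.1.1, ltW_mono hk h.1.2⟩, ltW_mono hk h.2⟩

theorem okA_sound {n k : ℕ} (hn : n ≤ 10) (hk : k ≤ 5) {g : ℕ → Equiv.Perm (Fin n)}
    (hg : ∀ j < k, ∀ x : Fin n, (g j x : ℕ) = gp j x) {w w' : List ℕ} (h : okA k w w' = true) :
    (w.map g).prod = (w'.map g).prod := by
  have key : ∀ (w : List ℕ) (p : ℕ), ltW k w = true → ∀ x : Fin n, dig (pk w p) x = dig p ((w.map g).prod x) := by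
    intro w
    induction w with
    | nil => exact fun _ _ _ => rfl
    | cons j w ih =>
      intro p hw x
      obtain ⟨h1, h2⟩ := ltW_cons hw
      have e : pk (j :: w) p = pk w (stp p j) := force_eq _ _
      rw [e, ih _ h2, List.map_cons, List.prod_cons, Equiv.Perm.mul_apply, hg j h1,
        dig_stp p (by omega) (lt_of_lt_of_le (Fin.is_lt _) hn)]
  have e0 : ∀ x < 10, dig 0x9876543210 x = x := by decide +kernel
  have h1 := okA_lt h
  rw [okA, Bool.and_eq_true, Bool.and_eq_true] at h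
  refine Equiv.ext fun x => Fin.ext ?_
  rw [← e0 _ (lt_of_lt_of_le ((w.map g).prod x).2 hn), ← key w _ h1.1, Nat.eq_of_beq_eq_true h.1.1, key w' _ h1.2,
    e0 _ (lt_of_lt_of_le ((w'.map g).prod x).2 hn)]

variable {K : Type u} [Field K] {V : Type*} [AddCommGroup V] [Module K V]

theorem good_res {k k' : ℕ} (hk : k ≤ k') {a : ℕ → End K V} (ha : Good (okA k') k' a) : Good (okA k) k (subF a (sing k)) :=
  ⟨fun w w' h => by rw [wd_res a (okA_lt h).1, wd_res a (okA_lt h).2, ha.rel w w' (okA_mono hk h)],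
    fun _ hj => subF_ge a (by rwa [length_sing])⟩

theorem Frm.res {k k' : ℕ} (hk : k ≤ k') {a : ℕ → End K V} {β : LinearMap.BilinForm K V} (h : Frm k' a β) :
    Frm k (subF a (sing k)) β :=
  ⟨h.nd, fun j hj x y => by rw [res_lt a hj]; exact h.inv j (by omega) x y⟩

theorem Nil.res {k : ℕ} {a : ℕ → End K V} {e : Ex} (he : ltE k e = true) : Nil (subF a (sing k)) e ↔ Nil a e := by
  rw [Nil, Nil, el_res a he]

theorem kd_res [CharP K 2] {k : ℕ} (a : ℕ → End K V) {w : List ℕ} (h : ltW k w = true) :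
    kd (subF a (sing k)) [fe w] = kd a [fe w] := by
  have : Kr (subF a (sing k)) [fe w] = Kr a [fe w] := Submodule.ext fun v => by rw [mem_fe, mem_fe, wd_res a h]
  rw [kd, kd, this]

theorem Fx_res [CharP K 2] {k k' : ℕ} (hk : k ≤ k') (a : ℕ → End K V) : Fx (subF a (sing k')) (sing k) = Fx a (sing k) :=
  Submodule.ext fun v => by
    rw [mem_Fx_sing, mem_Fx_sing]
    exact forall₂_congr fun j hj => by rw [res_lt a (by omega)]

/-- the family of a representation -/
theorem good_rep {n k : ℕ} (hn : n ≤ 10) (hk : k ≤ 5) {g : ℕ → alternatingGroup (Fin n)}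
    (hg : ∀ j < k, ∀ x : Fin n, ((g j : Equiv.Perm (Fin n)) x : ℕ) = gp j x) (ψ : alternatingGroup (Fin n) →* End K V) :
    Good (okA k) k (subF (fun j => ψ (g j)) (sing k)) ∧
      (∀ w, ltW k w = true → wd (subF (fun j => ψ (g j)) (sing k)) w = ψ (w.map g).prod) ∧
      ∀ w w', okA k w w' = true → (w.map g).prod = (w'.map g).prod := by
  have e1 : ∀ w, ltW k w = true → wd (subF (fun j => ψ (g j)) (sing k)) w = ψ (w.map g).prod := fun w hw => by
    rw [wd_res _ hw, wd, map_list_prod, List.map_map]; rfl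
  have e2 : ∀ w w', okA k w w' = true → (w.map g).prod = (w'.map g).prod := fun w w' h => by
    have := okA_sound hn hk (g := fun j => (g j : Equiv.Perm (Fin n))) hg h
    refine Subtype.ext ?_
    rw [Subgroup.val_list_prod, Subgroup.val_list_prod, List.map_map, List.map_map]
    exact this
  exact ⟨⟨fun w w' h => by rw [e1 w (okA_lt h).1, e1 w' (okA_lt h).2, e2 w w' h],
    fun _ hj => subF_ge _ (by rwa [length_sing])⟩, e1, e2⟩

end Cfsg.Agent.E8A.Mc
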