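import Cfsg.Agent.E8A.Mc.Ops

/-!
# A module machine in characteristic two: matrices as natural numbers (helper42; the rank after helper38)

* `bv K n v` : the vector of the bits of `v`; `lin K n T` : the operator whose rows are packed in `T`;
* `mul` : the product of packed matrices; `ops K n S` : the family of a list of tables; `evW`, `evE` : evaluation;
* `rkE` : the rank of a list of elements, `kd_ops`.
-/

set_option autoImplicit false

namespace Cfsg.Agent.E8A.Mc

open Module

universe u

/-- evaluate the number first -/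
noncomputable def force {α : Type} (n : ℕ) (f : ℕ → α) : α := Nat.rec (f 0) (fun k _ => f (Nat.succ k)) n

theorem force_eq {α : Type} (n : ℕ) (f : ℕ → α) : force n f = f n := by cases n <;> rfl

/-- evaluate a list first -/
noncomputable def forceL {α : Type} (l : List ℕ) : (List ℕ → α) → α :=
  List.rec (motive := fun _ => (List ℕ → α) → α) (fun k => k []) (fun x _ ih k => force x fun y => ih fun l' => k (y :: l')) l

theorem forceL_eq {α : Type} (l : List ℕ) (k : List ℕ → α) : forceL l k = k l := by
  induction l generalizing k with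
  | nil => rfl
  | cons x l ih => exact (force_eq x fun y => forceL l fun l' => k (y :: l')).trans (ih _)

/-- the test of a bit, for the kernel -/
def tb (v i : ℕ) : Bool := Nat.beq (Nat.land (Nat.shiftRight v i) 1) 1

theorem tb_eq (v i : ℕ) : tb v i = v.testBit i := by
  have h : Nat.land (Nat.shiftRight v i) 1 = (v >>> i) % 2 := Nat.and_one_is_mod _
  rw [tb, h, Nat.testBit_eq_decide_div_mod_eq, Nat.shiftRight_eq_div_pow]
  by_cases e : v / 2 ^ i % 2 = 1
  · rw [e, decide_eq_true rfl]; rfl
  · rw [decide_eq_false e]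
    exact Bool.eq_false_iff.2 fun h => e (Nat.eq_of_beq_eq_true h)

/-- an entry of a list -/
noncomputable def nth (S : List ℕ) : ℕ → ℕ :=
  List.rec (motive := fun _ => ℕ → ℕ) (fun _ => 0) (fun x _ ih j => Nat.rec (motive := fun _ => ℕ) x (fun i _ => ih i) j) S

theorem nth_eq (S : List ℕ) (j : ℕ) : nth S j = S.getD j 0 := by
  induction S generalizing j with
  | nil => rfl
  | cons x S ih =>
    cases j with
    | zero => rfl
    | succ j => exact ih j

/-- a test for all numbers below `n` -/
noncomputable def allN (n : ℕ) (p : ℕ → Bool) : Bool := Nat.rec (motive := fun _ => Bool) true (fun i ih => p i && ih) n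

theorem allN_spec {n : ℕ} {p : ℕ → Bool} (h : allN n p = true) {i : ℕ} (hi : i < n) : p i = true := by
  induction n with
  | zero => exact absurd hi (Nat.not_lt_zero i)
  | succ n ih =>
    have h' : (p n && allN n p) = true := h
    rw [Bool.and_eq_true] at h'
    rcases Nat.lt_succ_iff_lt_or_eq.1 hi with e | e
    · exact ih h'.2 e
    · rw [e]; exact h'.1

/-- the `i`-th row of a table -/
def row (n T i : ℕ) : ℕ := Nat.land (Nat.shiftRight T (Nat.mul n i)) (Nat.sub (Nat.pow 2 n) 1)

theorem testBit_row (n T i t : ℕ) : (row n T i).testBit t = (decide (t < n) && T.testBit (n * i + t)) := by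
  have h : row n T i = (T >>> (n * i)) &&& (2 ^ n - 1) := rfl
  rw [h, Nat.testBit_and, Nat.testBit_shiftRight, Nat.testBit_two_pow_sub_one, Bool.and_comm]

theorem row_lt (n T i : ℕ) : row n T i < 2 ^ n :=
  Nat.lt_pow_two_of_testBit _ fun t ht => by rw [testBit_row, decide_eq_false (not_lt.2 ht), Bool.false_and]

/-- the number with the bits `b * r`, `r < m` -/
def geo (b m : ℕ) : ℕ := Nat.div (Nat.sub (Nat.pow 2 (Nat.mul b m)) 1) (Nat.sub (Nat.pow 2 b) 1)

theorem testBit_geo {b : ℕ} (hb : 0 < b) (m s : ℕ) : (geo b m).testBit s = true ↔ ∃ r < m, s = b * r := by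
  have h2 : 1 < 2 ^ b := Nat.one_lt_two_pow hb.ne'
  have key : ∀ m, ∃ g, (2 ^ b - 1) * g + 1 = 2 ^ (b * m) ∧ ∀ s, g.testBit s = true ↔ ∃ r < m, s = b * r := by
    intro m
    induction m with
    | zero => exact ⟨0, rfl, fun s => by simp⟩
    | succ m ih =>
      obtain ⟨g, h1, h3⟩ := ih
      refine ⟨2 ^ b * g + 1, ?_, fun s => ?_⟩
      · obtain ⟨c, hc⟩ : ∃ c, 2 ^ b = c + 1 := ⟨2 ^ b - 1, by omega⟩
        rw [mul_add b, mul_one, pow_add, ← h1, hc, Nat.add_sub_cancel]
        ring
      · rw [Nat.testBit_two_pow_mul_add _ h2]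
        split_ifs with hs
        · rw [Nat.testBit_one_eq_true_iff_self_eq_zero]
          refine ⟨fun e => ⟨0, Nat.succ_pos m, e⟩, ?_⟩
          rintro ⟨r, -, rfl⟩
          rcases Nat.eq_zero_or_pos r with e | e
          · rw [e, mul_zero]
          · exact absurd (Nat.le_mul_of_pos_right b e) (not_le.2 hs)
        · rw [h3]
          constructor
          · rintro ⟨r, hr, e⟩
            exact ⟨r + 1, by omega, by rw [mul_add, mul_one]; omega⟩
          · rintro ⟨r, hr, rfl⟩
            cases r with
            | zero => exact absurd hb hs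
            | succ r => exact ⟨r, by omega, by rw [mul_add, mul_one, Nat.add_sub_cancel]⟩
  obtain ⟨g, h1, h3⟩ := key m
  have e : geo b m = g := by
    show (2 ^ (b * m) - 1) / (2 ^ b - 1) = g
    rw [← h1, Nat.add_sub_cancel, Nat.mul_div_cancel_left _ (by omega)]
  rw [e, h3]

theorem testBit_spread {n b : ℕ} (hb : b < 2 ^ n) {t : ℕ} (ht : t < n) (i : ℕ) {y : ℕ}
    (hy : ∀ s, y.testBit s = true → n ∣ s) : (y * b).testBit (n * i + t) = (y.testBit (n * i) && b.testBit t) := by
  induction i generalizing y with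
  | zero => ?_
  | succ i ih => ?_
  all_goals
    have e1 : y % 2 ^ n = if y.testBit 0 then 1 else 0 := Nat.eq_of_testBit_eq fun s => by
      rw [Nat.testBit_mod_two_pow]
      rcases Nat.eq_zero_or_pos s with rfl | hs
      · rw [decide_eq_true (by omega : 0 < n), Bool.true_and]
        cases y.testBit 0 <;> rfl
      · have e2 : (if y.testBit 0 then 1 else 0 : ℕ).testBit s = false := by
          split_ifs
          · exact Bool.eq_false_iff.2 fun e => hs.ne' (Nat.testBit_one_eq_true_iff_self_eq_zero.1 e)
          · exact Nat.zero_testBit s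
        rw [e2, Bool.and_eq_false_iff]
        by_cases e : s < n
        · exact Or.inr (Bool.eq_false_iff.2 fun h => absurd (Nat.le_of_dvd hs (hy s h)) (not_le.2 e))
        · exact Or.inl (decide_eq_false e)
    have e2 : y * b = 2 ^ n * (y / 2 ^ n * b) + y % 2 ^ n * b := by
      conv_lhs => rw [← Nat.div_add_mod y (2 ^ n)]
      ring
    have e3 : y % 2 ^ n * b < 2 ^ n := by
      rw [e1]; split_ifs <;> omega
    rw [e2, Nat.testBit_two_pow_mul_add _ e3]
  · rw [mul_zero, zero_add, if_pos ht, e1]
    cases y.testBit 0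
    · simp
    · simp
  · rw [if_neg (by rw [mul_add, mul_one]; omega), show n * (i + 1) + t - n = n * i + t by rw [mul_add, mul_one]; omega,
      ih fun s hs => ?_, Nat.testBit_div_two_pow, mul_add, mul_one]
    rw [Nat.testBit_div_two_pow] at hs
    exact (Nat.dvd_add_left (dvd_refl n)).1 (hy _ hs)

/-- the product of two tables -/
noncomputable def mul (n A B : ℕ) : ℕ := force A fun A => force B fun B => force (geo n n) fun M =>
  Nat.rec (motive := fun _ => ℕ → ℕ) (fun acc => acc)
    (fun s ih acc => force (Nat.xor acc (Nat.mul (Nat.land (Nat.shiftRight A s) M) (row n B s))) ih) n 0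

/-- the table of the identity -/
def idT (n : ℕ) : ℕ := geo (Nat.succ n) n

/-- the table of a word -/
noncomputable def evW (n : ℕ) (S : List ℕ) (w : List ℕ) : ℕ :=
  List.rec (motive := fun _ => ℕ) (idT n)
    (fun j w' ih => List.rec (motive := fun _ => ℕ) (nth S j) (fun _ _ _ => mul n ih (nth S j)) w') w

/-- the table of an element of the free algebra -/
noncomputable def evE (n : ℕ) (S : List ℕ) (e : Ex) : ℕ :=
  Ex.rec (motive := fun _ => ℕ) 0 (evW n S) (fun _ _ x y => Nat.xor x y) (fun _ _ x y => mul n y x) e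

/-- clear the bit `p` with the number `v` -/
noncomputable def elim (p v : ℕ) (k : List ℕ → ℕ) (l : List ℕ) : List ℕ → ℕ :=
  List.rec (motive := fun _ => List ℕ → ℕ) k
    (fun w _ ih acc => Bool.rec (ih (w :: acc))
      (Nat.rec (motive := fun _ => ℕ) (ih acc) (fun t _ => ih (Nat.succ t :: acc)) (Nat.xor w v)) (tb w p)) l

/-- the highest bit, by bisection -/
noncomputable def lg (k : ℕ) : ℕ → ℕ → ℕ :=
  Nat.rec (motive := fun _ => ℕ → ℕ → ℕ) (fun _ p => p)
    (fun i ih v p => Nat.rec (motive := fun _ => ℕ) (ih v p) (fun t _ => force (Nat.add p (Nat.pow 2 i)) (ih (Nat.succ t)))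
      (Nat.shiftRight v (Nat.pow 2 i))) k

/-- a bit that is set -/
noncomputable def piv (v : ℕ) : ℕ := force (lg 20 v 0) fun p => Bool.rec (motive := fun _ => ℕ) (Nat.log2 v) p (tb v p)

theorem testBit_piv {v : ℕ} (h : v ≠ 0) : v.testBit (piv v) = true := by
  have key : ∀ q, v.testBit (force q fun p => Bool.rec (motive := fun _ => ℕ) (Nat.log2 v) p (tb v p)) = true := fun q => by
    rw [force_eq, tb_eq]
    cases e : v.testBit q with
    | false => exact Nat.testBit_log2 h
    | true => exact e
  exact key (lg 20 v 0)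

/-- the rank, by elimination -/
noncomputable def rk (pv : ℕ → ℕ) (f : ℕ) : List ℕ → ℕ → ℕ :=
  Nat.rec (motive := fun _ => List ℕ → ℕ → ℕ) (fun _ c => c)
    (fun _ ih l c => List.rec (motive := fun _ => ℕ) c
      (fun v l' _ => Nat.rec (motive := fun _ => ℕ) (ih l' c)
        (fun _ _ => force (pv v) fun p => elim p v (fun l'' => ih l'' (Nat.succ c)) l' []) v) l) f

/-- the rows of several tables, one after the other -/
noncomputable def cat (n : ℕ) (Ts : List ℕ) (i : ℕ) : ℕ :=
  List.rec (motive := fun _ => ℕ) 0 (fun T _ ih => Nat.xor (row n T i) (Nat.shiftLeft ih n)) Ts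

/-- the rank of a list of elements -/
noncomputable def rkE (n : ℕ) (S : List ℕ) (E : List Ex) : ℕ :=
  forceL (E.map (evE n S)) fun Ts => forceL ((List.range n).map (cat n Ts)) fun l => rk piv n l 0

variable (K : Type u) [Field K]

/-- a bit as an element of the field -/
def bt (v i : ℕ) : K := if v.testBit i then 1 else 0

/-- the space of dimension `n` -/
abbrev X (n : ℕ) : Type u := Fin n → K

/-- the vector of the first `n` bits -/
def bv (n v : ℕ) : X K n := fun i => bt K v i

/-- the sequence of all bits -/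
def bw (v : ℕ) : ℕ → K := fun i => bt K v i

/-- the operator of a table -/
noncomputable def lin (n T : ℕ) : End K (X K n) := (Pi.basisFun K (Fin n)).constr K fun i => bv K n (row n T i)

/-- the family of operators -/
noncomputable def ops (n : ℕ) (S : List ℕ) : ℕ → End K (X K n) := fun j => lin K n (nth S j)

/-- the `i`-th coordinate -/
def co (n i : ℕ) : X K n →ₗ[K] K := if h : i < n then LinearMap.proj ⟨i, h⟩ else 0

/-- the span of a list of numbers -/
def spL (l : List ℕ) : Submodule K (ℕ → K) := Submodule.span K (bw K '' {x | x ∈ l})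

variable {K}

theorem bt_xor [CharP K 2] (a b i : ℕ) : bt K (a ^^^ b) i = bt K a i + bt K b i := by
  unfold bt
  rw [Nat.testBit_xor]
  cases a.testBit i <;> cases b.testBit i <;> simp [CharTwo.add_self_eq_zero]

theorem bt_zero (i : ℕ) : bt K 0 i = 0 := by unfold bt; rw [Nat.zero_testBit]; rfl

theorem bt_true {v i : ℕ} (h : v.testBit i = true) : bt K v i = 1 := by unfold bt; rw [if_pos h]

theorem bt_false {v i : ℕ} (h : v.testBit i = false) : bt K v i = 0 := by unfold bt; rw [h]; rfl

theorem bt_congr {v i w j : ℕ} (h : v.testBit i = w.testBit j) : bt K v i = bt K w j := by unfold bt; rw [h]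

theorem bt_of_and {v i a j b k : ℕ} (h : v.testBit i = (a.testBit j && b.testBit k)) : bt K v i = bt K a j * bt K b k := by
  unfold bt
  rw [h]
  cases a.testBit j <;> cases b.testBit k <;> simp

theorem bt_row {n t : ℕ} (h : t < n) (T i : ℕ) : bt K (row n T i) t = bt K T (n * i + t) :=
  bt_congr (by rw [testBit_row, decide_eq_true h, Bool.true_and])

theorem bt_two_pow (j i : ℕ) : bt K (2 ^ j) i = if j = i then 1 else 0 := by
  unfold bt
  rw [Nat.testBit_two_pow]
  by_cases h : j = i
  · rw [if_pos h, if_pos (decide_eq_true h)]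
  · rw [if_neg h, if_neg (by rw [decide_eq_false h]; decide)]

theorem bv_xor [CharP K 2] (n a b : ℕ) : bv K n (a ^^^ b) = bv K n a + bv K n b := funext fun i => bt_xor a b i

theorem bv_zero (n : ℕ) : bv K n 0 = 0 := funext fun i => bt_zero i

theorem bw_xor [CharP K 2] (a b : ℕ) : bw K (a ^^^ b) = bw K a + bw K b := funext fun i => bt_xor a b i

theorem bw_zero : bw K 0 = 0 := funext fun i => bt_zero i

theorem bv_two_pow {n : ℕ} (j : Fin n) : bv K n (2 ^ (j : ℕ)) = Pi.single j 1 := by
  funext i
  rw [bv, bt_two_pow, Pi.single_apply]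
  by_cases h : i = j
  · rw [if_pos h, if_pos (congrArg Fin.val h).symm]
  · rw [if_neg h, if_neg fun e => h (Fin.ext e).symm]

theorem bv_one_ne {n : ℕ} (h : 0 < n) : bv K n 1 ≠ 0 := fun e =>
  one_ne_zero ((bt_true (K := K) (v := 1) (i := 0) rfl).symm.trans (congrFun e ⟨0, h⟩))

theorem x_ext {n : ℕ} {V : Type*} [AddCommGroup V] [Module K V] {f g : X K n →ₗ[K] V}
    (h : ∀ i < n, f (bv K n (2 ^ i)) = g (bv K n (2 ^ i))) : f = g :=
  (Pi.basisFun K (Fin n)).ext fun i => by rw [Pi.basisFun_apply, ← bv_two_pow]; exact h i i.2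

theorem x_sum {n : ℕ} {V : Type*} [AddCommGroup V] [Module K V] (f : X K n →ₗ[K] V) (y : ℕ) :
    f (bv K n y) = ∑ s ∈ Finset.range n, bt K y s • f (bv K n (2 ^ s)) := by
  rw [Finset.sum_range, LinearMap.pi_apply_eq_sum_univ]
  refine Finset.sum_congr rfl fun s _ => ?_
  rw [bv_two_pow, bv]
  exact congrArg (fun x => bt K y s • f x) (funext fun j => by rw [Pi.single_apply]; exact if_congr eq_comm rfl rfl)

theorem lin_pow {n i : ℕ} (h : i < n) (T : ℕ) : lin K n T (bv K n (2 ^ i)) = bv K n (row n T i) := by
  rw [bv_two_pow (⟨i, h⟩ : Fin n), ← Pi.basisFun_apply]; exact Basis.constr_basis _ _ _ _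

theorem lin_one {n : ℕ} (h : 0 < n) (T : ℕ) : lin K n T (bv K n 1) = bv K n (row n T 0) := lin_pow h T

theorem lin_xor [CharP K 2] (n A B : ℕ) : lin K n (A ^^^ B) = lin K n A + lin K n B :=
  x_ext fun i hi => by
    rw [LinearMap.add_apply, lin_pow hi, lin_pow hi, lin_pow hi]
    funext t
    rw [Pi.add_apply, bv, bv, bv, bt_row t.2, bt_row t.2, bt_row t.2, bt_xor]

theorem lin_zero (n : ℕ) : lin K n 0 = 0 := x_ext fun i hi => by
  rw [lin_pow hi]
  funext t
  rw [bv, bt_row t.2, bt_zero]; rfl

theorem lin_idT (n : ℕ) : lin K n (idT n) = 1 := x_ext fun i hi => by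
  rw [lin_pow hi]
  funext t
  rw [End.one_apply, bv, bv, bt_row t.2]
  refine bt_congr (Bool.eq_iff_iff.2 ?_)
  rw [idT, testBit_geo (Nat.succ_pos n), Nat.testBit_two_pow, decide_eq_true_iff]
  constructor
  · rintro ⟨r, hr, e⟩
    rw [Nat.succ_mul] at e
    have e1 := congrArg (· % n) e
    have e2 := congrArg (· / n) e
    simp only [Nat.mul_add_mod, Nat.mod_eq_of_lt t.2, Nat.mod_eq_of_lt hr, Nat.mul_add_div (by omega : n > 0),
      Nat.div_eq_of_lt t.2, Nat.div_eq_of_lt hr] at e1 e2
    omega
  · intro e
    exact ⟨i, hi, by rw [Nat.succ_mul, ← e]⟩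

theorem lin_mul [CharP K 2] (n A B : ℕ) : lin K n (mul n A B) = lin K n B * lin K n A := x_ext fun i hi => by
  have key : ∀ m acc, ∀ t < n, bt K (Nat.rec (motive := fun _ => ℕ → ℕ) (fun acc => acc)
      (fun s ih acc => force (Nat.xor acc (Nat.mul (Nat.land (Nat.shiftRight A s) (geo n n)) (row n B s))) ih) m acc) (n * i + t) =
        bt K acc (n * i + t) + ∑ s ∈ Finset.range m, bt K A (n * i + s) * bt K (row n B s) t := by
    intro m
    induction m with
    | zero => intro acc t _; exact (add_zero _).symm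
    | succ m ih =>
      intro acc t ht
      have e := ih (acc ^^^ (((A >>> m) &&& geo n n) * row n B m)) t ht
      rw [bt_xor, bt_of_and (testBit_spread (row_lt n B m) ht i fun s hs => ?_), add_assoc] at e
      · rw [Finset.sum_range_succ, add_comm _ (_ * _), ← bt_congr (v := (A >>> m) &&& geo n n) (i := n * i) (w := A) (j := n * i + m) (by
          rw [Nat.testBit_and, (testBit_geo (by omega) n _).2 ⟨i, hi, rfl⟩, Bool.and_true, Nat.testBit_shiftRight, add_comm]),
          ← e]
        exact congrArg (bt K · _) (force_eq _ _)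
      · rw [Nat.testBit_and, Bool.and_eq_true] at hs
        obtain ⟨r, -, rfl⟩ := (testBit_geo (by omega) n _).1 hs.2
        exact dvd_mul_right n r
  rw [End.mul_apply, lin_pow hi, lin_pow hi, x_sum]
  funext t
  rw [bv, bt_row t.2, mul, force_eq, force_eq, force_eq, key n 0 t t.2, bt_zero, zero_add, Finset.sum_apply]
  refine Finset.sum_congr rfl fun s hs => ?_
  rw [lin_pow (Finset.mem_range.1 hs), bt_row (Finset.mem_range.1 hs)]
  rfl

theorem ops_ge (n : ℕ) {S : List ℕ} {j : ℕ} (h : S.length ≤ j) : ops K n S j = 0 := by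
  rw [ops, nth_eq, List.getD_eq_default _ _ h, lin_zero]

theorem lin_evW [CharP K 2] (n : ℕ) (S : List ℕ) (w : List ℕ) : lin K n (evW n S w) = wd (ops K n S) w := by
  induction w with
  | nil => exact lin_idT n
  | cons j w ih =>
    cases w with
    | nil => exact (wd_single (ops K n S) j).symm
    | cons i w => rw [wd_cons, ← ih]; exact lin_mul n _ _

theorem lin_evE [CharP K 2] (n : ℕ) (S : List ℕ) (e : Ex) : lin K n (evE n S e) = el (ops K n S) e := by
  induction e with
  | z => exact lin_zero n
  | w w => exact lin_evW n S w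
  | add x y hx hy => rw [el_add, ← hx, ← hy]; exact lin_xor n _ _
  | mul x y hx hy => rw [el_mul, ← hx, ← hy]; exact lin_mul n _ _

theorem ops_map [CharP K 2] (n : ℕ) (S : List ℕ) (zs : List (List ℕ)) :
    ops K n (zs.map (evW n S)) = subF (ops K n S) zs := funext fun i => by
  rcases lt_or_ge i zs.length with hi | hi
  · rw [subF_lt _ hi, ← lin_evW, ops, nth_eq, List.getD_eq_getElem _ _ (by rwa [List.length_map]), List.getElem_map,
      List.getD_eq_getElem _ _ hi]
  · rw [subF_ge _ hi, ops_ge _ (by rwa [List.length_map])]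

theorem co_bv {n k : ℕ} (h : k < n) (v : ℕ) : co K n k (bv K n v) = bt K v k := by
  unfold co; rw [dif_pos h]; rfl

theorem co_ge {n k : ℕ} (h : n ≤ k) : co K n k = 0 := dif_neg (not_lt.2 h)

/-! ### ranks -/

theorem spL_nil : spL K [] = ⊥ := by
  rw [spL, Submodule.span_eq_bot]
  rintro _ ⟨x, hx, -⟩
  exact absurd hx List.not_mem_nil

theorem spL_cons (v : ℕ) (l : List ℕ) : spL K (v :: l) = Submodule.span K {bw K v} ⊔ spL K l := by
  have e : {x | x ∈ v :: l} = insert v {x | x ∈ l} := Set.ext fun _ => List.mem_cons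
  rw [spL, e, Set.image_insert_eq, Submodule.span_insert]; rfl

theorem spL_fin (l : List ℕ) : Module.Finite K (spL K l) := Module.Finite.span_of_finite K ((List.finite_toSet l).image (bw K))

theorem spL_le {l : List ℕ} {W : Submodule K (ℕ → K)} (h : ∀ x ∈ l, bw K x ∈ W) : spL K l ≤ W := by
  rw [spL, Submodule.span_le]
  rintro _ ⟨x, hx, rfl⟩
  exact h x hx

theorem mem_spL {l : List ℕ} {x : ℕ} (h : x ∈ l) : bw K x ∈ spL K l := Submodule.subset_span ⟨x, h, rfl⟩

variable [CharP K 2]

theorem elim_spec {p v : ℕ} (hv : bt K v p = 1) (k : List ℕ → ℕ) (l acc : List ℕ) (ha : ∀ x ∈ acc, bt K x p = 0) :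
    ∃ l', elim p v k l acc = k l' ∧ l'.length ≤ l.length + acc.length ∧ (∀ x ∈ l', bt K x p = 0) ∧
      Submodule.span K {bw K v} ⊔ spL K l' = Submodule.span K {bw K v} ⊔ spL K l ⊔ spL K acc := by
  induction l generalizing acc with
  | nil => exact ⟨acc, rfl, by rw [List.length_nil, zero_add], ha, by rw [spL_nil, sup_bot_eq]⟩
  | cons w l ih =>
    have e0 : elim p v k (w :: l) acc = Bool.rec (motive := fun _ => ℕ) (elim p v k l (w :: acc))
      (Nat.rec (motive := fun _ => ℕ) (elim p v k l acc) (fun t _ => elim p v k l (Nat.succ t :: acc)) (w ^^^ v))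
        (tb w p) := rfl
    rw [e0, tb_eq]
    cases e : w.testBit p with
    | false =>
      obtain ⟨l', h1, h2, h3, h4⟩ := ih (w :: acc) fun x hx => by
        rcases List.mem_cons.1 hx with rfl | hx
        · exact bt_false e
        · exact ha x hx
      refine ⟨l', h1, by rw [List.length_cons] at h2 ⊢; omega, h3, ?_⟩
      rw [h4, spL_cons, spL_cons]
      ac_rfl
    | true =>
      have hw : Submodule.span K {bw K v} ⊔ Submodule.span K {bw K (w ^^^ v)} =
          Submodule.span K {bw K v} ⊔ Submodule.span K {bw K w} := by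
        have hv1 : ∀ S : Submodule K (ℕ → K), bw K v ∈ Submodule.span K {bw K v} ⊔ S := fun S =>
          Submodule.mem_sup_left (Submodule.mem_span_singleton_self _)
        refine le_antisymm (sup_le le_sup_left ?_) (sup_le le_sup_left ?_)
        · rw [Submodule.span_singleton_le_iff_mem, bw_xor]
          exact add_mem (Submodule.mem_sup_right (Submodule.mem_span_singleton_self _)) (hv1 _)
        · rw [Submodule.span_singleton_le_iff_mem]
          have : bw K w = bw K (w ^^^ v) + bw K v := by rw [bw_xor, add_assoc, add_self' K, add_zero]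
          rw [this]
          exact add_mem (Submodule.mem_sup_right (Submodule.mem_span_singleton_self _)) (hv1 _)
      cases e1 : w ^^^ v with
      | zero =>
        obtain ⟨l', h1, h2, h3, h4⟩ := ih acc ha
        refine ⟨l', h1, by rw [List.length_cons]; omega, h3, ?_⟩
        rw [e1, bw_zero, Submodule.span_zero_singleton, sup_bot_eq] at hw
        rw [h4, spL_cons, ← sup_assoc, ← hw]
      | succ t =>
        obtain ⟨l', h1, h2, h3, h4⟩ := ih ((t + 1) :: acc) fun x hx => by
          rcases List.mem_cons.1 hx with rfl | hx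
          · rw [← e1, bt_xor, bt_true e, hv, CharTwo.add_self_eq_zero]
          · exact ha x hx
        refine ⟨l', h1, by rw [List.length_cons] at h2 ⊢; omega, h3, ?_⟩
        rw [h4, spL_cons, spL_cons, ← sup_assoc _ (Submodule.span K {bw K w}), ← hw, e1]
        ac_rfl

theorem rk_eq {pv : ℕ → ℕ} (hp : ∀ {v}, v ≠ 0 → v.testBit (pv v) = true) (f : ℕ) (l : List ℕ) (c : ℕ) (h : l.length ≤ f) :
    rk pv f l c = c + finrank K (spL K l) := by
  induction f generalizing l c with
  | zero =>
    rw [List.length_eq_zero_iff.1 (Nat.le_zero.1 h), spL_nil, finrank_bot]; rfl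
  | succ f ih =>
    cases l with
    | nil => rw [spL_nil, finrank_bot]; rfl
    | cons v l =>
      rw [List.length_cons] at h
      cases v with
      | zero =>
        rw [spL_cons, bw_zero, Submodule.span_zero_singleton, bot_sup_eq, ← ih l c (by omega)]; rfl
      | succ t =>
        have e0 : rk pv (f + 1) ((t + 1) :: l) c =
          force (pv (t + 1)) fun p => elim p (t + 1) (fun l'' => rk pv f l'' (c + 1)) l [] := rfl
        have hv : bt K (t + 1) (pv (t + 1)) = 1 := bt_true (hp (Nat.succ_ne_zero t))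
        obtain ⟨l', h1, h2, h3, h4⟩ := elim_spec hv (fun l'' => rk pv f l'' (c + 1)) l [] fun _ hx => absurd hx List.not_mem_nil
        rw [List.length_nil] at h2
        rw [spL_nil, sup_bot_eq] at h4
        rw [e0, force_eq, h1, ih l' _ (by omega), spL_cons, ← h4]
        have hn : bw K (t + 1) ∉ spL K l' := fun hm => by
          have : spL K l' ≤ LinearMap.ker (LinearMap.proj (pv (t + 1)) : (ℕ → K) →ₗ[K] K) := spL_le fun x hx => h3 x hx
          exact one_ne_zero (hv.symm.trans (this hm))
        have h0 : bw K (t + 1) ≠ 0 := fun e => hn (e ▸ zero_mem _)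
        have := spL_fin (K := K) l'
        have e := Submodule.finrank_sup_add_finrank_inf_eq (Submodule.span K {bw K (t + 1)}) (spL K l')
        rw [finrank_span_singleton h0, ((Submodule.disjoint_span_singleton' h0).2 hn).symm.eq_bot, finrank_bot] at e
        omega

omit [CharP K 2] in
theorem cat_spec (n : ℕ) (Ts : List ℕ) : ∃ A : X K n →ₗ[K] (ℕ → K), (∀ i < n, A (bv K n (2 ^ i)) = bw K (cat n Ts i)) ∧
    ∀ v, A v = 0 ↔ ∀ T ∈ Ts, lin K n T v = 0 := by
  induction Ts with
  | nil => exact ⟨0, fun _ _ => bw_zero.symm, fun _ => ⟨fun _ _ h => absurd h List.not_mem_nil, fun _ => rfl⟩⟩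
  | cons T Ts ih =>
    obtain ⟨A, h1, h2⟩ := ih
    refine ⟨LinearMap.pi fun t => if t < n then co K n t ∘ₗ lin K n T else LinearMap.proj (t - n) ∘ₗ A, fun i hi => ?_,
      fun v => ?_⟩
    · funext t
      have e : cat n (T :: Ts) i = row n T i ^^^ (cat n Ts i <<< n) := rfl
      rw [LinearMap.pi_apply, e, bw]
      split_ifs with ht
      · rw [LinearMap.comp_apply, lin_pow hi, co_bv ht]
        exact bt_congr (by rw [Nat.testBit_xor, Nat.testBit_shiftLeft, decide_eq_false (by omega), Bool.false_and, Bool.xor_false])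
      · rw [LinearMap.comp_apply, h1 i hi, LinearMap.proj_apply, bw]
        exact bt_congr (by rw [Nat.testBit_xor, Nat.testBit_shiftLeft, testBit_row, decide_eq_false ht,
          decide_eq_true (by omega : t ≥ n), Bool.false_and, Bool.true_and, Bool.false_xor])
    · rw [List.forall_mem_cons, ← h2]
      constructor
      · intro h
        refine ⟨funext fun t => ?_, funext fun t => ?_⟩
        · have := congrFun h t
          rwa [LinearMap.pi_apply, if_pos t.2, LinearMap.comp_apply, co, dif_pos t.2] at this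
        · have := congrFun h (t + n)
          rwa [LinearMap.pi_apply, if_neg (by omega), Nat.add_sub_cancel] at this
      · rintro ⟨e1, e2⟩
        funext t
        rw [LinearMap.pi_apply]
        split_ifs
        · rw [LinearMap.comp_apply, e1, map_zero]; rfl
        · rw [LinearMap.comp_apply, e2, map_zero]; rfl

theorem kd_ops (n : ℕ) (S : List ℕ) (E : List Ex) : rkE n S E + kd (ops K n S) E = n := by
  obtain ⟨A, h1, h2⟩ := cat_spec (K := K) n (E.map (evE n S))
  have e : LinearMap.range A = spL K ((List.range n).map (cat n (E.map (evE n S)))) := by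
    refine le_antisymm ?_ (spL_le fun x hx => ?_)
    · rw [LinearMap.range_eq_map, ← (Pi.basisFun K (Fin n)).span_eq, Submodule.map_span_le]
      rintro _ ⟨i, rfl⟩
      rw [Pi.basisFun_apply, ← bv_two_pow, h1 i i.2]
      exact mem_spL (List.mem_map.2 ⟨i, List.mem_range.2 i.2, rfl⟩)
    · obtain ⟨a, ha, rfl⟩ := List.mem_map.1 hx
      exact ⟨_, h1 a (List.mem_range.1 ha)⟩
  have e1 : LinearMap.ker A = Kr (ops K n S) E := Submodule.ext fun v => by
    rw [LinearMap.mem_ker, h2, mem_Kr, List.forall_mem_map]
    exact forall₂_congr fun e _ => by rw [lin_evE]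
  rw [rkE, forceL_eq, forceL_eq, rk_eq (K := K) testBit_piv _ _ _ (by rw [List.length_map, List.length_range]), zero_add, ← e, kd, ← e1,
    LinearMap.finrank_range_add_finrank_ker, Module.finrank_fin_fun]

end Cfsg.Agent.E8A.Mc
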