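import Cfsg.Agent.E8A.Mc.Bits

/-!
# A module machine in characteristic two: certificates (helper42)

* `spinOk` : the first basis vector generates; `badOk` : a model on which an element is not nilpotent;
  `norOk` : Norton's test;
* `blkOk`, `blocksOk` : block triangular families; `indOk` : induced families in a new basis.
-/

set_option autoImplicit false

namespace Cfsg.Agent.E8A.Mc

open Module

universe u

/-- the basis vectors from `i` on are images of earlier ones -/
noncomputable def spinA (n : ℕ) (S : List ℕ) (prog : List (ℕ × ℕ)) : ℕ → Bool :=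
  List.rec (motive := fun _ => ℕ → Bool) (fun i => Nat.beq i n)
    (fun p _ ih i => Nat.blt p.2 i && Nat.blt p.2 n && Nat.beq (row n (nth S p.1) p.2) (Nat.pow 2 i) && force (Nat.succ i) ih) prog

/-- the first basis vector generates -/
noncomputable def spinOk (n : ℕ) (S : List ℕ) (prog : List (ℕ × ℕ)) : Bool := Nat.blt 0 n && spinA n S prog 1

/-- the first basis vector generates and is fixed by `ρ` -/
noncomputable def badOk (n : ℕ) (S : List ℕ) (ρ : Ex) (prog : List (ℕ × ℕ)) : Bool :=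
  spinOk n S prog && Nat.beq (row n (evE n S ρ) 0) 1

/-- Norton's test -/
noncomputable def norOk (n : ℕ) (S : List ℕ) (θ : Ex) (prog : List (ℕ × ℕ)) (L : ℕ) (ws : List (List ℕ)) : Bool :=
  spinOk n S prog && Nat.beq (row n (evE n S θ) 0) 0 && Nat.beq (Nat.succ (rkE n S [θ])) n &&
    Nat.beq (mul n (evE n S θ) L) 0 && Nat.beq (rkE n (S ++ [L]) (ws.map fun w => .w (S.length :: w))) n

/-- a diagonal block -/
noncomputable def blkOk (D : ℕ) (T : List ℕ) (o d : ℕ) (S : List ℕ) : Bool :=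
  Nat.ble (Nat.add o d) D && Nat.ble S.length T.length && allN T.length fun j => force (nth T j) fun A => force (nth S j) fun B =>
    allN d fun r => Nat.beq (Nat.shiftRight (row D A (Nat.add o r)) o) (row d B r)

/-- the dimension of a model -/
def md (M : List (ℕ × List ℕ)) (J : ℕ) : ℕ := (M.getD J (0, [])).1

/-- the tables of a model -/
def ms (M : List (ℕ × List ℕ)) (J : ℕ) : List ℕ := (M.getD J (0, [])).2

/-- the diagonal blocks -/
noncomputable def blocksOk (D : ℕ) (T : List ℕ) (M : List (ℕ × List ℕ)) (bl : List ℕ) : ℕ → Bool :=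
  List.rec (motive := fun _ => ℕ → Bool) (fun o => Nat.beq o D)
    (fun J _ ih o => blkOk D T o (md M J) (ms M J) && force (Nat.add o (md M J)) ih) bl

/-- an entry of a list of words -/
noncomputable def nthW (S : List (List ℕ)) : ℕ → List ℕ :=
  List.rec (motive := fun _ => ℕ → List ℕ) (fun _ => [])
    (fun x _ ih j => Nat.rec (motive := fun _ => List ℕ) x (fun i _ => ih i) j) S

/-- the table of a letter on the induced family -/
noncomputable def mkS (D d : ℕ) (S : List ℕ) (tj : List (ℕ × List ℕ)) : ℕ :=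
  List.rec (motive := fun _ => ℕ → ℕ → ℕ) (fun _ acc => acc)
    (fun p _ ih q acc => force (evW d S p.2) fun B => force (Nat.rec (motive := fun _ => ℕ → ℕ) (fun acc => acc)
      (fun r ih' acc => force (Nat.xor acc (Nat.shiftLeft (row d B r) (Nat.add (Nat.mul D (Nat.add q r)) (Nat.mul d p.1)))) ih')
        d acc) fun acc' => force (Nat.add q d) fun q' => ih q' acc') tj 0 0

/-- the check of a letter on the induced family -/
noncomputable def letOk (ok : List ℕ → List ℕ → Bool) (n d : ℕ) (S : List ℕ) (zs ts : List (List ℕ)) (j A : ℕ)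
    (tj : List (ℕ × List ℕ)) : ℕ → Bool :=
  List.rec (motive := fun _ => ℕ → Bool) (fun i => Nat.beq i n)
    (fun p _ ih i => ok (j :: nthW ts i) (nthW ts p.1 ++ flat zs p.2) && ltW zs.length p.2 && Nat.blt p.1 n &&
      (force (evW d S p.2) fun B => allN d fun r =>
        Nat.beq (row (Nat.mul n d) A (Nat.add (Nat.mul d i) r)) (Nat.shiftLeft (row d B r) (Nat.mul d p.1))) &&
      force (Nat.succ i) ih) tj

/-- the check of an induced family with `n` cosets, in the basis `P`, with the blocks `bl` -/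
noncomputable def indOk (ok : List ℕ → List ℕ → Bool) (k n d : ℕ) (S : List ℕ) (zs ts : List (List ℕ))
    (tab : List (List (ℕ × List ℕ))) (P Q : ℕ) (M : List (ℕ × List ℕ)) (bl : List ℕ) : Bool :=
  Nat.blt 0 n && (nthW ts 0).isEmpty && Nat.beq (mul (Nat.mul n d) Q P) (idT (Nat.mul n d)) &&
    forceL (tab.map (mkS (Nat.mul n d) d S)) fun A => Nat.beq A.length k &&
      (allN k fun j => letOk ok n d S zs ts j (nth A j) (tab.getD j []) 0) &&
      forceL (A.map fun x => mul (Nat.mul n d) (mul (Nat.mul n d) P x) Q) fun T => blocksOk (Nat.mul n d) T M bl 0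

variable {K : Type u} [Field K] {V : Type*} [AddCommGroup V] [Module K V]

theorem spin_top {n : ℕ} {S : List ℕ} {prog : List (ℕ × ℕ)} (h : spinOk n S prog = true) {W : Submodule K (X K n)}
    (hW : Inv (ops K n S) W) (h1 : bv K n 1 ∈ W) : W = ⊤ := by
  have key : ∀ (prog : List (ℕ × ℕ)) (i : ℕ), spinA n S prog i = true → (∀ q < i, bv K n (2 ^ q) ∈ W) →
      ∀ q < n, bv K n (2 ^ q) ∈ W := by
    intro prog
    induction prog with
    | nil => exact fun i hi h2 q hq => h2 q (lt_of_lt_of_eq hq (Nat.eq_of_beq_eq_true hi).symm)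
    | cons p prog ih =>
      intro i hi h2
      have h3 : (Nat.blt p.2 i && Nat.blt p.2 n && Nat.beq (row n (nth S p.1) p.2) (2 ^ i) &&
        force (i + 1) (spinA n S prog)) = true := hi
      rw [force_eq, Bool.and_eq_true, Bool.and_eq_true, Bool.and_eq_true, Nat.blt_eq, Nat.blt_eq] at h3
      refine ih _ h3.2 fun q hq => ?_
      rcases Nat.lt_succ_iff_lt_or_eq.1 hq with e | e
      · exact h2 q e
      · rw [e, ← Nat.eq_of_beq_eq_true h3.1.2, ← lin_pow h3.1.1.2]
        exact hW p.1 _ (h2 _ h3.1.1.1)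
  rw [spinOk, Bool.and_eq_true] at h
  have h2 := key prog 1 h.2 fun q hq => by rw [Nat.lt_one_iff.1 hq]; exact h1
  have h3 : W.mkQ = 0 := x_ext fun i hi => (Submodule.Quotient.mk_eq_zero W).2 (h2 i hi)
  rw [eq_top_iff]
  exact fun v _ => (Submodule.Quotient.mk_eq_zero W).1 (LinearMap.congr_fun h3 v)

theorem spin_pos {n : ℕ} {S : List ℕ} {prog : List (ℕ × ℕ)} (h : spinOk n S prog = true) : 0 < n := by
  rw [spinOk, Bool.and_eq_true, Nat.blt_eq] at h; exact h.1

theorem spin_zero {n : ℕ} {S : List ℕ} {prog : List (ℕ × ℕ)} (h : spinOk n S prog = true) {a : ℕ → End K V}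
    {f : X K n →ₗ[K] V} (hf : Hom (ops K n S) a f) (h1 : f (bv K n 1) = 0) : f = 0 :=
  LinearMap.ker_eq_top.1 (spin_top h hf.inv_ker h1)

theorem el_one [CharP K 2] {n : ℕ} (h : 0 < n) (S : List ℕ) (e : Ex) :
    el (ops K n S) e (bv K n 1) = bv K n (row n (evE n S e) 0) := by rw [← lin_evE, lin_one h]

theorem bad_zero [CharP K 2] {n : ℕ} {S : List ℕ} {ρ : Ex} {prog : List (ℕ × ℕ)} (h : badOk n S ρ prog = true)
    {a : ℕ → End K V} (ha : Nil a ρ) {f : X K n →ₗ[K] V} (hf : Hom (ops K n S) a f) : f = 0 := by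
  rw [badOk, Bool.and_eq_true] at h
  refine spin_zero h.1 hf (ha.fix ?_)
  rw [← hf.el, el_one (spin_pos h.1), Nat.eq_of_beq_eq_true h.2]

/-- what Norton's test gives -/
structure Nor (K : Type u) [Field K] (n : ℕ) (S : List ℕ) (θ : Ex) : Prop where
  pos : 0 < n
  mem : bv K n 1 ∈ Kr (ops K n S) [θ]
  one : kd (ops K n S) [θ] = 1
  sim : ∀ W : Submodule K (X K n), Inv (ops K n S) W → W = ⊥ ∨ W = ⊤

theorem nor_sound [CharP K 2] {n : ℕ} {S : List ℕ} {θ : Ex} {prog : List (ℕ × ℕ)} {L : ℕ} {ws : List (List ℕ)}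
    (h : norOk n S θ prog L ws = true) : Nor K n S θ := by
  simp only [norOk, Bool.and_eq_true] at h
  obtain ⟨⟨⟨⟨h1, h2⟩, h3⟩, h4⟩, h5⟩ := h
  have hn := spin_pos h1
  have e1 : bv K n 1 ∈ Kr (ops K n S) [θ] := by rw [mem_Kr_one, el_one hn, Nat.eq_of_beq_eq_true h2, bv_zero]
  have e2 : kd (ops K n S) [θ] = 1 := by
    have := kd_ops (K := K) n S [θ]
    have := Nat.eq_of_beq_eq_true h3
    omega
  refine ⟨hn, e1, e2, fun W hW => ?_⟩
  by_cases hc : ∃ w ∈ W, w ≠ 0 ∧ el (ops K n S) θ w = 0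
  · obtain ⟨w, hw, hw0, hw1⟩ := hc
    obtain ⟨c, hc⟩ := (finrank_eq_one_iff_of_nonzero' (⟨w, mem_Kr_one.2 hw1⟩ : Kr (ops K n S) [θ])
      fun e => hw0 (congrArg Subtype.val e)).1 e2 ⟨_, e1⟩
    exact Or.inr (spin_top h1 hW ((show c • w = bv K n 1 from congrArg Subtype.val hc) ▸ W.smul_mem c hw))
  · have e3 : Function.Injective ((el (ops K n S) θ).restrict fun v (hv : v ∈ W) => hW.el θ hv) := by
      rw [injective_iff_map_eq_zero]
      intro v hv
      by_contra h0
      exact hc ⟨v, v.2, fun e => h0 (Subtype.ext e), congrArg Subtype.val hv⟩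
    have e4 : ∀ v ∈ W, lin K n L v = 0 := fun v hv => by
      obtain ⟨y, hy⟩ := LinearMap.injective_iff_surjective.1 e3 ⟨v, hv⟩
      rw [← (show el (ops K n S) θ y = v from congrArg Subtype.val hy), ← lin_evE, ← End.mul_apply, ← lin_mul,
        Nat.eq_of_beq_eq_true h4, lin_zero]; rfl
    have e5 : ops K n (S ++ [L]) S.length = lin K n L := by
      rw [ops, nth_eq, List.getD_append_right _ _ _ _ le_rfl, Nat.sub_self]; rfl
    have e6 : Inv (ops K n (S ++ [L])) W := fun j v hv => by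
      rcases lt_trichotomy j S.length with e | e | e
      · rw [ops, nth_eq, List.getD_append _ _ _ _ e, ← nth_eq]; exact hW j v hv
      · rw [e, e5, e4 v hv]; exact zero_mem _
      · rw [ops_ge _ (by rw [List.length_append, List.length_singleton]; omega)]; exact zero_mem _
    have e7 : W ≤ Kr (ops K n (S ++ [L])) (ws.map fun w => .w (S.length :: w)) := fun v hv => by
      rw [mem_Kr, List.forall_mem_map]
      intro w _
      rw [el_w, wd_cons_apply, e5, e4 _ (e6.wd w hv)]
    have e8 := kd_ops (K := K) n (S ++ [L]) (ws.map fun w => .w (S.length :: w))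
    rw [Nat.eq_of_beq_eq_true h5, kd] at e8
    exact Or.inl (le_bot_iff.1 (e7.trans (Submodule.finrank_eq_zero.1 (by omega)).le))

theorem Nor.inj {n : ℕ} {S : List ℕ} {θ : Ex} (h : Nor K n S θ) {a : ℕ → End K V} {f : X K n →ₗ[K] V}
    (hf : Hom (ops K n S) a f) (h0 : f ≠ 0) : Function.Injective f :=
  LinearMap.ker_eq_bot.1 ((h.sim _ hf.inv_ker).resolve_right fun e => h0 (LinearMap.ker_eq_top.1 e))

variable (K) in
/-- the inclusion of a block -/
noncomputable def inc (D o d : ℕ) : X K d →ₗ[K] X K D := (Pi.basisFun K (Fin d)).constr K fun r => bv K D (2 ^ (o + r))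

theorem inc_pow (D o : ℕ) {d r : ℕ} (h : r < d) : inc K D o d (bv K d (2 ^ r)) = bv K D (2 ^ (o + r)) := by
  rw [bv_two_pow (⟨r, h⟩ : Fin d), ← Pi.basisFun_apply]; exact Basis.constr_basis _ _ _ _

theorem inc_bv (D o : ℕ) {d x : ℕ} (h : x < 2 ^ d) : inc K D o d (bv K d x) = bv K D (x <<< o) := by
  funext t
  rw [x_sum, Finset.sum_apply, Finset.sum_congr rfl fun s hs => by
    rw [inc_pow D o (Finset.mem_range.1 hs), Pi.smul_apply, bv, bt_two_pow, smul_eq_mul, mul_ite, mul_one, mul_zero], bv]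
  by_cases e : o ≤ t
  · rw [bt_congr (w := x) (j := t - o) (by rw [Nat.testBit_shiftLeft, decide_eq_true e, Bool.true_and])]
    by_cases e' : t - o < d
    · rw [Finset.sum_eq_single (t - o) (fun b _ hb => if_neg (by omega)) fun hb => absurd (Finset.mem_range.2 e') hb,
        if_pos (by omega)]
    · rw [bt_false (Nat.testBit_lt_two_pow (h.trans_le (Nat.pow_le_pow_right two_pos (not_lt.1 e'))))]
      exact Finset.sum_eq_zero fun b hb => if_neg (by have := Finset.mem_range.1 hb; omega)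
  · rw [bt_false (by rw [Nat.testBit_shiftLeft, decide_eq_false e, Bool.false_and])]
    exact Finset.sum_eq_zero fun b _ => if_neg (by omega)

/-- the map vanishes on the first basis vectors -/
def Van {D : ℕ} (o : ℕ) (F : X K D →ₗ[K] V) : Prop := ∀ q < o, F (bv K D (2 ^ q)) = 0

theorem van_zero {D : ℕ} (F : X K D →ₗ[K] V) : Van 0 F := fun q hq => absurd hq (Nat.not_lt_zero q)

theorem Van.next {D o : ℕ} {F : X K D →ₗ[K] V} (h : Van o F) {d : ℕ} (h1 : F ∘ₗ inc K D o d = 0) : Van (o + d) F := by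
  intro q hq
  rcases lt_or_ge q o with e | e
  · exact h q e
  · obtain ⟨r, rfl⟩ := Nat.exists_eq_add_of_le e
    rw [← inc_pow D o (by omega : r < d)]
    exact LinearMap.congr_fun h1 _

theorem Van.zero {D : ℕ} {F : X K D →ₗ[K] V} (h : Van D F) : F = 0 := x_ext h

theorem Van.comp {V' : Type*} [AddCommGroup V'] [Module K V'] {D o : ℕ} {F : X K D →ₗ[K] V} (h : Van o F) (g : V →ₗ[K] V') :
    Van o (g ∘ₗ F) := fun q hq => by rw [LinearMap.comp_apply, h q hq, map_zero]

theorem blk {D o d : ℕ} {T S : List ℕ} (h : blkOk D T o d S = true) {a : ℕ → End K V} {F : X K D →ₗ[K] V}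
    (hF : Hom (ops K D T) a F) (hv : Van o F) : Hom (ops K d S) a (F ∘ₗ inc K D o d) := by
  rw [blkOk, Bool.and_eq_true, Bool.and_eq_true, Nat.ble_eq, Nat.ble_eq] at h
  obtain ⟨⟨h1, h2⟩, h3⟩ := h
  intro j v
  rcases lt_or_ge j T.length with hj | hj
  · have h4 := allN_spec h3 hj
    rw [force_eq, force_eq] at h4
    refine LinearMap.congr_fun (f := (F ∘ₗ inc K D o d) ∘ₗ ops K d S j) (g := a j ∘ₗ F ∘ₗ inc K D o d) (x_ext fun r hr => ?_) v
    have h5 : row D (nth T j) (o + r) >>> o = row d (nth S j) r := Nat.eq_of_beq_eq_true (allN_spec h4 hr)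
    have h6 : o + r < D := lt_of_lt_of_le (Nat.add_lt_add_left hr o) h1
    simp only [LinearMap.comp_apply]
    rw [inc_pow D o hr, ← hF, ops, ops, lin_pow hr, lin_pow h6, inc_bv D o (row_lt _ _ _), ← h5, x_sum, x_sum F (row _ _ _)]
    refine Finset.sum_congr rfl fun s _ => ?_
    rcases lt_or_ge s o with e | e
    · rw [hv s e, smul_zero, smul_zero]
    · rw [bt_congr (w := row D (nth T j) (o + r)) (j := s) (by
        rw [Nat.testBit_shiftLeft, decide_eq_true e, Bool.true_and, Nat.testBit_shiftRight, Nat.add_sub_cancel' e])]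
  · rw [LinearMap.comp_apply, LinearMap.comp_apply, ← hF, ops_ge _ hj, ops_ge _ (h2.trans hj), LinearMap.zero_apply,
      LinearMap.zero_apply, map_zero]

theorem blocks_cons {D : ℕ} {T : List ℕ} {M : List (ℕ × List ℕ)} {J : ℕ} {bl : List ℕ} {o : ℕ}
    (h : blocksOk D T M (J :: bl) o = true) : blkOk D T o (md M J) (ms M J) = true ∧ blocksOk D T M bl (o + md M J) = true := by
  have h' : (blkOk D T o (md M J) (ms M J) && force (o + md M J) (blocksOk D T M bl)) = true := h
  rwa [force_eq, Bool.and_eq_true] at h'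

theorem blocks_nil {D : ℕ} {T : List ℕ} {M : List (ℕ × List ℕ)} {o : ℕ} (h : blocksOk D T M [] o = true) : o = D :=
  Nat.eq_of_beq_eq_true h

theorem split {D : ℕ} {T : List ℕ} {M : List (ℕ × List ℕ)} {a : ℕ → End K V} {F : X K D →ₗ[K] V}
    (hF : Hom (ops K D T) a F) (h0 : F ≠ 0) {bl : List ℕ} {o : ℕ} (h : blocksOk D T M bl o = true) (hv : Van o F) :
    ∃ J ∈ bl, ∃ f : X K (md M J) →ₗ[K] V, Hom (ops K (md M J) (ms M J)) a f ∧ f ≠ 0 := by
  induction bl generalizing o with
  | nil => exact absurd (blocks_nil h ▸ hv).zero h0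
  | cons J bl ih =>
    obtain ⟨h1, h2⟩ := blocks_cons h
    by_cases e : F ∘ₗ inc K D o (md M J) = 0
    · obtain ⟨J', h3, h4⟩ := ih h2 (hv.next e)
      exact ⟨J', List.mem_cons_of_mem _ h3, h4⟩
    · exact ⟨J, List.mem_cons_self, _, blk h1 hF hv, e⟩

theorem let_spec {ok : List ℕ → List ℕ → Bool} {n d : ℕ} {S : List ℕ} {zs ts : List (List ℕ)} {j A : ℕ}
    {tj : List (ℕ × List ℕ)} {i0 : ℕ} (h : letOk ok n d S zs ts j A tj i0 = true) {i : ℕ} (h1 : i0 ≤ i) (h2 : i < n) :
    ∃ p u, ok (j :: nthW ts i) (nthW ts p ++ flat zs u) = true ∧ ltW zs.length u = true ∧ p < n ∧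
      ∀ r < d, row (n * d) A (d * i + r) = row d (evW d S u) r <<< (d * p) := by
  induction tj generalizing i0 with
  | nil => exact absurd (Nat.eq_of_beq_eq_true h) (by omega)
  | cons p tj ih =>
    have h' : (ok (j :: nthW ts i0) (nthW ts p.1 ++ flat zs p.2) && ltW zs.length p.2 && Nat.blt p.1 n &&
      (force (evW d S p.2) fun B => allN d fun r => Nat.beq (row (n * d) A (d * i0 + r)) (row d B r <<< (d * p.1))) &&
      force (i0 + 1) (letOk ok n d S zs ts j A tj)) = true := h
    rw [force_eq, force_eq, Bool.and_eq_true, Bool.and_eq_true, Bool.and_eq_true, Bool.and_eq_true, Nat.blt_eq] at h'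
    rcases h1.eq_or_lt with e | e
    · exact ⟨p.1, p.2, e ▸ h'.1.1.1.1, h'.1.1.1.2, h'.1.1.2, fun r hr => e ▸ Nat.eq_of_beq_eq_true (allN_spec h'.1.2 hr)⟩
    · exact ih h'.2 e

/-- the map on the induced space -/
noncomputable def ind0 (a : ℕ → End K V) (ts : List (List ℕ)) (n d : ℕ) : (X K d →ₗ[K] V) →ₗ[K] (X K (n * d) →ₗ[K] V) where
  toFun f := ∑ i ∈ Finset.range n, wd a (nthW ts i) ∘ₗ f ∘ₗ LinearMap.pi fun r : Fin d => co K (n * d) (d * i + r)
  map_add' f g := by
    rw [← Finset.sum_add_distrib]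
    exact Finset.sum_congr rfl fun i _ => by rw [LinearMap.add_comp, LinearMap.comp_add]
  map_smul' c f := by
    rw [Finset.smul_sum]
    exact Finset.sum_congr rfl fun i _ => by rw [LinearMap.smul_comp, LinearMap.comp_smul]; rfl

theorem ind0_bv (a : ℕ → End K V) (ts : List (List ℕ)) {n d p x : ℕ} (hp : p < n) (hx : x < 2 ^ d) (f : X K d →ₗ[K] V) :
    ind0 a ts n d f (bv K (n * d) (x <<< (d * p))) = wd a (nthW ts p) (f (bv K d x)) := by
  have key : ∀ i < n, (LinearMap.pi fun r : Fin d => co K (n * d) (d * i + r)) (bv K (n * d) (x <<< (d * p))) =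
      if i = p then bv K d x else 0 := fun i hi => by
    funext r
    have h1 : d * (i + 1) ≤ d * n := Nat.mul_le_mul_left d hi
    have h2 := r.2
    rw [mul_add, mul_one, mul_comm d n] at h1
    rw [LinearMap.pi_apply, co_bv (by omega)]
    rcases lt_trichotomy i p with e | e | e
    · have h3 : d * (i + 1) ≤ d * p := Nat.mul_le_mul_left d e
      rw [mul_add, mul_one] at h3
      rw [if_neg e.ne]
      exact bt_false (by rw [Nat.testBit_shiftLeft, decide_eq_false (by omega), Bool.false_and])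
    · rw [if_pos e, e]
      exact bt_congr (by rw [Nat.testBit_shiftLeft, decide_eq_true (by omega), Bool.true_and, Nat.add_sub_cancel_left])
    · have h3 : d * (p + 1) ≤ d * i := Nat.mul_le_mul_left d e
      rw [mul_add, mul_one] at h3
      rw [if_neg e.ne']
      exact bt_false (by
        rw [Nat.testBit_shiftLeft, Nat.testBit_lt_two_pow (hx.trans_le (Nat.pow_le_pow_right two_pos (by omega))), Bool.and_false])
  show (∑ i ∈ Finset.range n, wd a (nthW ts i) ∘ₗ f ∘ₗ LinearMap.pi fun r : Fin d => co K (n * d) (d * i + r)) _ = _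
  rw [LinearMap.sum_apply, Finset.sum_eq_single p (fun b hb e => by
    rw [LinearMap.comp_apply, LinearMap.comp_apply, key b (Finset.mem_range.1 hb), if_neg e, map_zero, map_zero])
    fun hb => absurd (Finset.mem_range.2 hp) hb, LinearMap.comp_apply, LinearMap.comp_apply, key p hp, if_pos rfl]

theorem ind_sound [CharP K 2] {ok : List ℕ → List ℕ → Bool} {k n d : ℕ} {S : List ℕ} {zs ts : List (List ℕ)}
    {tab : List (List (ℕ × List ℕ))} {P Q : ℕ} {M : List (ℕ × List ℕ)} {bl : List ℕ}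
    (h : indOk ok k n d S zs ts tab P Q M bl = true) {a : ℕ → End K V} (ha : Good ok k a) :
    ∃ T, blocksOk (n * d) T M bl 0 = true ∧ ∃ Φ : (X K d →ₗ[K] V) →ₗ[K] (X K (n * d) →ₗ[K] V),
      (∀ f, Hom (ops K d S) (subF a zs) f → Hom (ops K (n * d) T) a (Φ f)) ∧
        ∀ f, LinearMap.range f ≤ LinearMap.range (Φ f) := by
  rw [indOk, forceL_eq, forceL_eq] at h
  generalize tab.map (mkS (Nat.mul n d) d S) = A at h
  simp only [Bool.and_eq_true, Nat.blt_eq, List.isEmpty_iff, Nat.mul_eq] at h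
  obtain ⟨⟨⟨h1, h2⟩, h3⟩, ⟨h4, h5⟩, h6⟩ := h
  have e1 : lin K (n * d) P * lin K (n * d) Q = 1 := by
    rw [← lin_mul, ← lin_idT]; exact congrArg _ (Nat.eq_of_beq_eq_true h3)
  have e2 : A.length = k := Nat.eq_of_beq_eq_true h4
  have e3 : ∀ (f : X K d →ₗ[K] V) (i r : ℕ), i < n → r < d →
      ind0 a ts n d f (bv K (n * d) (2 ^ (d * i + r))) = wd a (nthW ts i) (f (bv K d (2 ^ r))) := fun f i r hi hr => by
    rw [← ind0_bv a ts hi (Nat.pow_lt_pow_right one_lt_two hr), Nat.shiftLeft_eq, ← pow_add, add_comm]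
  refine ⟨_, h6, LinearMap.lcomp K V (lin K (n * d) P) ∘ₗ ind0 a ts n d, fun f hf j v => ?_, fun f => ?_⟩
  · show ind0 a ts n d f (lin K (n * d) P _) = a j (ind0 a ts n d f (lin K (n * d) P v))
    rcases lt_or_ge j k with hj | hj
    · have e4 : ind0 a ts n d f ∘ₗ lin K (n * d) (nth A j) = a j ∘ₗ ind0 a ts n d f := x_ext fun q hq => by
        have hd : 0 < d := Nat.pos_of_ne_zero fun e => by rw [e] at hq; exact absurd hq (Nat.not_lt_zero q)
        have hi : q / d < n := (Nat.div_lt_iff_lt_mul hd).2 hq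
        obtain ⟨p, u, g1, g2, g3, g4⟩ := let_spec (allN_spec h5 hj) (Nat.zero_le _) hi
        have g5 := g4 _ (Nat.mod_lt q hd)
        have g6 := e3 f _ _ hi (Nat.mod_lt q hd)
        rw [Nat.div_add_mod] at g5 g6
        rw [LinearMap.comp_apply, LinearMap.comp_apply, lin_pow hq, g5, g6, ind0_bv a ts g3 (row_lt _ _ _),
          ← lin_pow (Nat.mod_lt q hd), lin_evW, hf.wd, wd_subF a g2, ← wd_append_apply, ← ha.rel _ _ g1, wd_cons_apply]
      rw [ops, nth_eq, List.getD_eq_getElem _ _ (by rw [List.length_map]; omega), List.getElem_map,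
        ← List.getD_eq_getElem A 0, ← nth_eq, lin_mul, lin_mul, ← End.mul_apply, ← mul_assoc, e1, one_mul, End.mul_apply]
      exact LinearMap.congr_fun e4 _
    · rw [ops_ge _ (by rw [List.length_map]; omega), ha.out j hj, LinearMap.zero_apply, map_zero, map_zero]; rfl
  · have e4 : f = ind0 a ts n d f ∘ₗ inc K (n * d) 0 d := x_ext fun r hr => by
      have := e3 f 0 r h1 hr
      rw [h2, wd_nil_apply] at this
      rw [LinearMap.comp_apply, inc_pow _ _ hr, ← this]; rfl
    rintro _ ⟨x, rfl⟩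
    refine ⟨lin K (n * d) Q (inc K (n * d) 0 d x), ?_⟩
    show ind0 a ts n d f (lin K (n * d) P _) = _
    rw [← End.mul_apply, e1]
    exact (LinearMap.congr_fun e4 x).symm

/-- a nonzero map from the inducing model gives a nonzero map from a block -/
theorem ind_split [CharP K 2] {ok : List ℕ → List ℕ → Bool} {k n d : ℕ} {S : List ℕ} {zs ts : List (List ℕ)}
    {tab : List (List (ℕ × List ℕ))} {P Q : ℕ} {M : List (ℕ × List ℕ)} {bl : List ℕ}
    (h : indOk ok k n d S zs ts tab P Q M bl = true) {a : ℕ → End K V} (ha : Good ok k a) {f : X K d →ₗ[K] V}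
    (hf : Hom (ops K d S) (subF a zs) f) (h0 : f ≠ 0) :
    ∃ J ∈ bl, ∃ g : X K (md M J) →ₗ[K] V, Hom (ops K (md M J) (ms M J)) a g ∧ g ≠ 0 := by
  obtain ⟨T, h1, Φ, h2, h3⟩ := ind_sound h ha
  refine split (h2 f hf) (fun e => h0 ?_) h1 (van_zero _)
  have := h3 f
  rwa [e, LinearMap.range_zero, le_bot_iff, LinearMap.range_eq_bot] at this

/-! ### the trivial model -/

theorem ops_triv {k j : ℕ} (h : j < k) : ops K 1 (List.replicate k 1) j = 1 := by
  rw [ops, nth_eq, List.getD_replicate _ h]; exact lin_idT 1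

variable (K V) in
/-- the map that sends the basis vector to a given vector -/
noncomputable def tv : V →ₗ[K] (X K 1 →ₗ[K] V) := LinearMap.smulRightₗ (co K 1 0)

theorem tv_one (v : V) : tv K V v (bv K 1 1) = v := by
  show co K 1 0 (bv K 1 1) • v = v
  rw [co_bv one_pos, bt_true rfl, one_smul]

theorem hom_tv [CharP K 2] {a : ℕ → End K V} {zs : List (List ℕ)} {v : V} (hv : v ∈ Fx a zs) :
    Hom (ops K 1 (List.replicate zs.length 1)) (subF a zs) (tv K V v) := fun j x => by
  rcases lt_or_ge j zs.length with hj | hj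
  · rw [ops_triv hj, subF_lt a hj, List.getD_eq_getElem _ _ hj]
    show co K 1 0 x • v = wd a _ (co K 1 0 x • v)
    rw [map_smul, mem_Fx.1 hv _ (List.getElem_mem hj)]
  · rw [ops_ge _ (by rwa [List.length_replicate]), subF_ge a hj]; exact map_zero _

theorem triv_zero [CharP K 2] {k : ℕ} {a : ℕ → End K V} (h : Fx a (sing k) = ⊥) {f : X K 1 →ₗ[K] V}
    (hf : Hom (ops K 1 (List.replicate k 1)) a f) : f = 0 := x_ext fun i hi => by
  have : f (bv K 1 (2 ^ i)) ∈ Fx a (sing k) := mem_Fx_sing.2 fun j hj => by rw [← hf, ops_triv hj]; rfl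
  rwa [h] at this

end Cfsg.Agent.E8A.Mc
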