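import Mathlib

/-!
# A module machine in characteristic two: families of operators (helper42)

* `wd a w` : the operator of a word; `Ex`, `el` : elements of the free algebra; `Inv`, `Hom`, `subOp`, `quoOp`, `subF`;
* `Kr a E` : the common kernel, left exact; `fe w` : the equation of the fixed vectors, exact for odd order;
* `foxE` : Fox derivatives; `chain` : fixed vectors of 2-groups; `Nil` : nilpotent elements; `fx_perp` : duality.
-/

set_option autoImplicit false

namespace Cfsg.Agent.E8A.Mc

open Module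

universe u

/-- elements of the free algebra -/
inductive Ex : Type
  | z : Ex
  | w : List ℕ → Ex
  | add : Ex → Ex → Ex
  | mul : Ex → Ex → Ex

/-- the equation of the vectors fixed by a word -/
def fe (w : List ℕ) : Ex := .add (.w w) (.w [])

/-- the sum of a list of words -/
noncomputable def sw (L : List (List ℕ)) : Ex := List.rec (motive := fun _ => Ex) .z (fun w _ ih => .add (.w w) ih) L

/-- the Fox derivative with respect to the letter `1` -/
noncomputable def foxE (w : List Bool) : Ex :=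
  List.rec (motive := fun _ => Ex) .z (fun b _ ih => Bool.rec (.mul (.w [0]) ih) (.add (.w []) (.mul (.w [1]) ih)) b) w

/-- a product of words of the list -/
def flat (ys : List (List ℕ)) (c : List ℕ) : List ℕ := c.flatMap fun i => ys.getD i []

/-- the word in two words -/
def flat2 (g h : List ℕ) (c : List Bool) : List ℕ := c.flatMap fun b => cond b h g

/-- the power of a word -/
def wpow (w : List ℕ) (n : ℕ) : List ℕ := (List.replicate n w).flatten

/-- the first letters -/
def sing (k : ℕ) : List (List ℕ) := (List.range k).map fun j => [j]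

/-- all letters are below `k` -/
def ltW (k : ℕ) (w : List ℕ) : Bool := w.all fun j => Nat.blt j k

/-- all letters are below `k` -/
noncomputable def ltE (k : ℕ) (e : Ex) : Bool :=
  Ex.rec (motive := fun _ => Bool) true (ltW k) (fun _ _ x y => x && y) (fun _ _ x y => x && y) e

theorem ltW_cons {k j : ℕ} {w : List ℕ} (h : ltW k (j :: w) = true) : j < k ∧ ltW k w = true := by
  rw [ltW, List.all_cons, Bool.and_eq_true, Nat.blt_eq] at h
  exact h

theorem ltW_mono {k k' : ℕ} (hk : k ≤ k') {w : List ℕ} (h : ltW k w = true) : ltW k' w = true := by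
  rw [ltW, List.all_eq_true] at h ⊢
  intro j hj
  have := h j hj
  rw [Nat.blt_eq] at this ⊢
  omega

variable {K : Type u} [Field K]

section Basic

variable {V V' : Type*} [AddCommGroup V] [Module K V] [AddCommGroup V'] [Module K V']

variable (K) in
theorem add_self' [CharP K 2] (v : V) : v + v = 0 := by
  calc v + v = (1 + 1 : K) • v := by rw [add_smul, one_smul]
    _ = 0 := by rw [CharTwo.add_self_eq_zero, zero_smul]

variable (K) in
theorem add_eq_zero' [CharP K 2] {v w : V} : v + w = 0 ↔ v = w := by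
  constructor
  · intro h
    calc v = v + (w + w) := by rw [add_self' K w, add_zero]
      _ = w := by rw [← add_assoc, h, zero_add]
  · rintro rfl
    exact add_self' K v

variable (K) in
theorem odd_smul [CharP K 2] {n : ℕ} (hn : Odd n) (v : V) : n • v = v := by
  obtain ⟨k, rfl⟩ := hn
  rw [add_smul, one_smul, mul_comm, mul_smul, two_smul, add_self' K, smul_zero, zero_add]

/-- the operator of a word -/
def wd (a : ℕ → End K V) (w : List ℕ) : End K V := (w.map a).prod

theorem wd_nil (a : ℕ → End K V) : wd a [] = 1 := rfl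

theorem wd_cons (a : ℕ → End K V) (j : ℕ) (w : List ℕ) : wd a (j :: w) = a j * wd a w := by
  rw [wd, List.map_cons, List.prod_cons]; rfl

theorem wd_append (a : ℕ → End K V) (w w' : List ℕ) : wd a (w ++ w') = wd a w * wd a w' := by
  rw [wd, List.map_append, List.prod_append]; rfl

theorem wd_single (a : ℕ → End K V) (j : ℕ) : wd a [j] = a j := by rw [wd_cons, wd_nil, mul_one]

theorem wd_nil_apply (a : ℕ → End K V) (v : V) : wd a [] v = v := rfl

theorem wd_cons_apply (a : ℕ → End K V) (j : ℕ) (w : List ℕ) (v : V) : wd a (j :: w) v = a j (wd a w v) := by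
  rw [wd_cons]; rfl

theorem wd_append_apply (a : ℕ → End K V) (w w' : List ℕ) (v : V) : wd a (w ++ w') v = wd a w (wd a w' v) := by
  rw [wd_append]; rfl

theorem wd_wpow (a : ℕ → End K V) (w : List ℕ) (n : ℕ) : wd a (wpow w n) = wd a w ^ n := by
  induction n with
  | zero => rfl
  | succ n ih =>
    rw [wpow, List.replicate_succ, List.flatten_cons, wd_append, pow_succ']
    exact congrArg _ ih

/-- the operator of an element of the free algebra -/
noncomputable def el (a : ℕ → End K V) (e : Ex) : End K V :=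
  Ex.rec (motive := fun _ => End K V) 0 (wd a) (fun _ _ x y => x + y) (fun _ _ x y => x * y) e

theorem el_z (a : ℕ → End K V) : el a .z = 0 := rfl
theorem el_w (a : ℕ → End K V) (w : List ℕ) : el a (.w w) = wd a w := rfl
theorem el_add (a : ℕ → End K V) (x y : Ex) : el a (.add x y) = el a x + el a y := rfl
theorem el_mul (a : ℕ → End K V) (x y : Ex) : el a (.mul x y) = el a x * el a y := rfl
theorem el_fe (a : ℕ → End K V) (w : List ℕ) (v : V) : el a (fe w) v = wd a w v + v := rfl

theorem el_sw (a : ℕ → End K V) (L : List (List ℕ)) : el a (sw L) = (L.map (wd a)).sum := by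
  induction L with
  | nil => rfl
  | cons w L ih => rw [List.map_cons, List.sum_cons, ← ih]; rfl

/-- invariant subspaces -/
def Inv (a : ℕ → End K V) (W : Submodule K V) : Prop := ∀ j, ∀ v ∈ W, a j v ∈ W

/-- intertwining maps -/
def Hom (a : ℕ → End K V) (b : ℕ → End K V') (f : V →ₗ[K] V') : Prop := ∀ j v, f (a j v) = b j (f v)

theorem Hom.wd {a : ℕ → End K V} {b : ℕ → End K V'} {f : V →ₗ[K] V'} (h : Hom a b f) (w : List ℕ) (v : V) :
    f (wd a w v) = wd b w (f v) := by
  induction w with
  | nil => rfl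
  | cons j w ih => rw [wd_cons_apply, wd_cons_apply, h, ih]

theorem Hom.el {a : ℕ → End K V} {b : ℕ → End K V'} {f : V →ₗ[K] V'} (h : Hom a b f) (e : Ex) (v : V) :
    f (el a e v) = el b e (f v) := by
  induction e generalizing v with
  | z => exact map_zero f
  | w w => exact h.wd w v
  | add x y hx hy => rw [el_add, el_add, LinearMap.add_apply, LinearMap.add_apply, map_add, hx, hy]
  | mul x y hx hy => rw [el_mul, el_mul, End.mul_apply, End.mul_apply, hx, hy]

theorem Hom.comp {V'' : Type*} [AddCommGroup V''] [Module K V''] {a : ℕ → End K V} {b : ℕ → End K V'} {c : ℕ → End K V''}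
    {f : V →ₗ[K] V'} {g : V' →ₗ[K] V''} (h' : Hom b c g) (h : Hom a b f) : Hom a c (g ∘ₗ f) := fun j v => by
  rw [LinearMap.comp_apply, LinearMap.comp_apply, h, h']

/-- the relations accepted by `ok` hold, the letters from `k` on act as zero -/
structure Good (ok : List ℕ → List ℕ → Bool) (k : ℕ) (a : ℕ → End K V) : Prop where
  rel : ∀ w w', ok w w' = true → wd a w = wd a w'
  out : ∀ j, k ≤ j → a j = 0

theorem Good.of_inj {ok : List ℕ → List ℕ → Bool} {k : ℕ} {a : ℕ → End K V} {b : ℕ → End K V'} {f : V →ₗ[K] V'}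
    (h : Hom a b f) (hf : Function.Injective f) (hb : Good ok k b) : Good ok k a := by
  refine ⟨fun w w' hw => LinearMap.ext fun v => hf ?_, fun j hj => LinearMap.ext fun v => hf ?_⟩
  · rw [h.wd, h.wd, hb.rel w w' hw]
  · rw [h, hb.out j hj, LinearMap.zero_apply, LinearMap.zero_apply, map_zero]

theorem Good.of_surj {ok : List ℕ → List ℕ → Bool} {k : ℕ} {a : ℕ → End K V} {b : ℕ → End K V'} {f : V →ₗ[K] V'}
    (h : Hom a b f) (hf : Function.Surjective f) (ha : Good ok k a) : Good ok k b := by
  refine ⟨fun w w' hw => LinearMap.ext fun v => ?_, fun j hj => LinearMap.ext fun v => ?_⟩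
  · obtain ⟨v, rfl⟩ := hf v
    rw [← h.wd, ← h.wd, ha.rel w w' hw]
  · obtain ⟨v, rfl⟩ := hf v
    rw [← h, ha.out j hj, LinearMap.zero_apply, LinearMap.zero_apply, map_zero]

/-- the operators on an invariant subspace -/
def subOp (a : ℕ → End K V) (W : Submodule K V) (h : Inv a W) : ℕ → End K W :=
  fun j => (a j).restrict (h j)

/-- the operators on the quotient -/
def quoOp (a : ℕ → End K V) (W : Submodule K V) (h : Inv a W) : ℕ → End K (V ⧸ W) :=
  fun j => W.mapQ W (a j) (h j)

theorem hom_sub (a : ℕ → End K V) (W : Submodule K V) (h : Inv a W) : Hom (subOp a W h) a W.subtype :=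
  fun _ _ => rfl

theorem hom_quo (a : ℕ → End K V) (W : Submodule K V) (h : Inv a W) : Hom a (quoOp a W h) W.mkQ :=
  fun _ _ => rfl

theorem Good.sub {ok : List ℕ → List ℕ → Bool} {k : ℕ} {a : ℕ → End K V} (ha : Good ok k a) {W : Submodule K V}
    (h : Inv a W) : Good ok k (subOp a W h) := ha.of_inj (hom_sub a W h) W.injective_subtype

theorem Good.quo {ok : List ℕ → List ℕ → Bool} {k : ℕ} {a : ℕ → End K V} (ha : Good ok k a) {W : Submodule K V}
    (h : Inv a W) : Good ok k (quoOp a W h) := ha.of_surj (hom_quo a W h) W.mkQ_surjective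

theorem Inv.el {a : ℕ → End K V} {W : Submodule K V} (h : Inv a W) (e : Ex) {v : V} (hv : v ∈ W) : el a e v ∈ W := by
  have := (hom_sub a W h).el e ⟨v, hv⟩
  exact (show Mc.el a e v = _ from this.symm) ▸ Subtype.property _

theorem Inv.wd {a : ℕ → End K V} {W : Submodule K V} (h : Inv a W) (w : List ℕ) {v : V} (hv : v ∈ W) : wd a w v ∈ W :=
  h.el (.w w) hv

theorem Inv.comap {a : ℕ → End K V} {b : ℕ → End K V'} {f : V →ₗ[K] V'} (h : Hom a b f) {W : Submodule K V'}
    (hW : Inv b W) : Inv a (W.comap f) := by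
  intro j v hv
  rw [Submodule.mem_comap, h]
  exact hW j _ hv

theorem Hom.inv_range {a : ℕ → End K V} {b : ℕ → End K V'} {f : V →ₗ[K] V'} (h : Hom a b f) : Inv b (LinearMap.range f) := by
  rintro j _ ⟨v, rfl⟩
  exact ⟨a j v, h j v⟩

theorem Hom.inv_ker {a : ℕ → End K V} {b : ℕ → End K V'} {f : V →ₗ[K] V'} (h : Hom a b f) : Inv a (LinearMap.ker f) := by
  intro j v hv
  rw [LinearMap.mem_ker] at hv ⊢
  rw [h, hv, map_zero]

/-- the family of the words of a list -/
noncomputable def subF (a : ℕ → End K V) (zs : List (List ℕ)) : ℕ → End K V := fun i => Option.rec 0 (wd a) zs[i]?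

theorem subF_lt (a : ℕ → End K V) {zs : List (List ℕ)} {i : ℕ} (h : i < zs.length) : subF a zs i = wd a (zs.getD i []) := by
  rw [subF, List.getD_eq_getElem _ _ h, List.getElem?_eq_getElem h]

theorem subF_ge (a : ℕ → End K V) {zs : List (List ℕ)} {i : ℕ} (h : zs.length ≤ i) : subF a zs i = 0 := by
  rw [subF, List.getElem?_eq_none h]

theorem Hom.subF {a : ℕ → End K V} {b : ℕ → End K V'} {f : V →ₗ[K] V'} (h : Hom a b f) (zs : List (List ℕ)) :
    Hom (subF a zs) (subF b zs) f := fun i v => by
  rcases lt_or_ge i zs.length with hi | hi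
  · rw [subF_lt a hi, subF_lt b hi, h.wd]
  · rw [subF_ge a hi, subF_ge b hi]; exact map_zero f

theorem wd_subF (a : ℕ → End K V) {zs : List (List ℕ)} {c : List ℕ} (h : ltW zs.length c = true) :
    wd (subF a zs) c = wd a (flat zs c) := by
  induction c with
  | nil => rfl
  | cons i c ih =>
    obtain ⟨h1, h2⟩ := ltW_cons h
    rw [wd_cons, flat, List.flatMap_cons, wd_append, subF_lt a h1, ih h2]; rfl

theorem length_sing (k : ℕ) : (sing k).length = k := by rw [sing, List.length_map, List.length_range]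

theorem res_lt (a : ℕ → End K V) {k j : ℕ} (h : j < k) : subF a (sing k) j = a j := by
  rw [subF_lt a (by rwa [length_sing]), List.getD_eq_getElem _ _ (by rwa [length_sing])]
  simp only [sing, List.getElem_map, List.getElem_range]
  exact wd_single a j

theorem wd_res (a : ℕ → End K V) {k : ℕ} {w : List ℕ} (h : ltW k w = true) : wd (subF a (sing k)) w = wd a w := by
  induction w with
  | nil => rfl
  | cons j w ih =>
    obtain ⟨h1, h2⟩ := ltW_cons h
    rw [wd_cons, wd_cons, res_lt a h1, ih h2]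

theorem el_res (a : ℕ → End K V) {k : ℕ} {e : Ex} (h : ltE k e = true) : el (subF a (sing k)) e = el a e := by
  induction e with
  | z => rfl
  | w w => exact wd_res a h
  | add x y hx hy =>
    have h' : (ltE k x && ltE k y) = true := h
    rw [Bool.and_eq_true] at h'
    rw [el_add, el_add, hx h'.1, hy h'.2]
  | mul x y hx hy =>
    have h' : (ltE k x && ltE k y) = true := h
    rw [Bool.and_eq_true] at h'
    rw [el_mul, el_mul, hx h'.1, hy h'.2]

/-- the common kernel -/
def Kr (a : ℕ → End K V) (E : List Ex) : Submodule K V where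
  carrier := {v | ∀ e ∈ E, el a e v = 0}
  zero_mem' := fun _ _ => map_zero _
  add_mem' := fun {x y} hx hy w hw => by rw [map_add, hx w hw, hy w hw, add_zero]
  smul_mem' := fun c x hx w hw => by rw [map_smul, hx w hw, smul_zero]

theorem mem_Kr {a : ℕ → End K V} {E : List Ex} {v : V} : v ∈ Kr a E ↔ ∀ e ∈ E, el a e v = 0 := Iff.rfl

theorem mem_Kr_one {a : ℕ → End K V} {e : Ex} {v : V} : v ∈ Kr a [e] ↔ el a e v = 0 := by
  rw [mem_Kr]; exact List.forall_mem_singleton

theorem Hom.mem_Kr {a : ℕ → End K V} {b : ℕ → End K V'} {f : V →ₗ[K] V'} (h : Hom a b f) {E : List Ex} {v : V}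
    (hv : v ∈ Kr a E) : f v ∈ Kr b E := fun e he => by rw [← h.el, hv e he, map_zero]

theorem Hom.mem_Kr_of {a : ℕ → End K V} {b : ℕ → End K V'} {f : V →ₗ[K] V'} (h : Hom a b f) (hf : Function.Injective f)
    {E : List Ex} {v : V} (hv : f v ∈ Kr b E) : v ∈ Kr a E := fun e he => hf (by rw [h.el, hv e he, map_zero])

/-- the dimension of the common kernel -/
noncomputable def kd (a : ℕ → End K V) (E : List Ex) : ℕ := finrank K (Kr a E)

/-- the fixed vectors of a list of words -/
def Fx (a : ℕ → End K V) (ys : List (List ℕ)) : Submodule K V := Kr a (ys.map fe)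

theorem mem_Fx [CharP K 2] {a : ℕ → End K V} {ys : List (List ℕ)} {v : V} : v ∈ Fx a ys ↔ ∀ y ∈ ys, wd a y v = v := by
  rw [Fx, mem_Kr, List.forall_mem_map]
  exact forall₂_congr fun y _ => by rw [el_fe, add_eq_zero' K]

theorem mem_fe [CharP K 2] {a : ℕ → End K V} {y : List ℕ} {v : V} : v ∈ Kr a [fe y] ↔ wd a y v = v := by
  rw [mem_Kr_one, el_fe, add_eq_zero' K]

theorem mem_Fx_sing [CharP K 2] {a : ℕ → End K V} {k : ℕ} {v : V} : v ∈ Fx a (sing k) ↔ ∀ j < k, a j v = v := by
  rw [mem_Fx, sing, List.forall_mem_map]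
  exact forall_congr' fun j => by rw [List.mem_range, wd_single]

theorem wd_of_fix {a : ℕ → End K V} {k : ℕ} {v : V} (hv : ∀ j < k, a j v = v) {w : List ℕ} (h : ltW k w = true) :
    wd a w v = v := by
  induction w with
  | nil => rfl
  | cons j w ih =>
    obtain ⟨h1, h2⟩ := ltW_cons h
    rw [wd_cons_apply, ih h2, hv j h1]

theorem inv_Fx [CharP K 2] {a : ℕ → End K V} {k : ℕ} (h : ∀ j, k ≤ j → a j = 0) : Inv a (Fx a (sing k)) := fun j v hv => by
  rcases lt_or_ge j k with hj | hj
  · rw [mem_Fx_sing.1 hv j hj]; exact hv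
  · rw [h j hj]; exact zero_mem _

theorem wd_flat [CharP K 2] {a : ℕ → End K V} {ys : List (List ℕ)} {v : V} (hv : v ∈ Fx a ys) (c : List ℕ) :
    wd a (flat ys c) v = v := by
  induction c with
  | nil => rfl
  | cons i c ih =>
    rw [flat, List.flatMap_cons, wd_append_apply]
    rw [flat] at ih
    rw [ih]
    by_cases hi : i < ys.length
    · rw [List.getD_eq_getElem _ _ hi]; exact mem_Fx.1 hv _ (List.getElem_mem hi)
    · rw [List.getD_eq_default _ _ (not_lt.1 hi)]; rfl

/-- every word is an involution modulo, and normalises, the words after it -/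
noncomputable def chainOk (ok : List ℕ → List ℕ → Bool) (l : List (List ℕ × List ℕ × List (List ℕ))) : Bool :=
  List.rec (motive := fun _ => Bool) true
    (fun p l ih => ih && ok (p.1 ++ p.1) (flat (l.map Prod.fst) p.2.1) &&
      (List.range l.length).all fun t =>
        ok ((l.map Prod.fst).getD t [] ++ p.1) (p.1 ++ flat (l.map Prod.fst) (p.2.2.getD t []))) l

theorem chain [CharP K 2] {ok : List ℕ → List ℕ → Bool} {k : ℕ} {a : ℕ → End K V} (ha : Good ok k a) (h0 : ∃ v : V, v ≠ 0)
    {l : List (List ℕ × List ℕ × List (List ℕ))} (h : chainOk ok l = true) : ∃ v ∈ Fx a (l.map Prod.fst), v ≠ 0 := by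
  induction l with
  | nil =>
    obtain ⟨v, hv⟩ := h0
    exact ⟨v, fun _ hy => absurd hy List.not_mem_nil, hv⟩
  | cons p l ih =>
    have h' : (chainOk ok l && ok (p.1 ++ p.1) (flat (l.map Prod.fst) p.2.1) &&
      (List.range l.length).all fun t =>
        ok ((l.map Prod.fst).getD t [] ++ p.1) (p.1 ++ flat (l.map Prod.fst) (p.2.2.getD t []))) = true := h
    rw [Bool.and_eq_true, Bool.and_eq_true, List.all_eq_true] at h'
    obtain ⟨⟨h1, h2⟩, h3⟩ := h'
    obtain ⟨v, hv, hv0⟩ := ih h1
    by_cases e : wd a p.1 v = v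
    · refine ⟨v, mem_Fx.2 fun y hy => ?_, hv0⟩
      rcases List.mem_cons.1 hy with rfl | hy
      · exact e
      · exact mem_Fx.1 hv y hy
    · refine ⟨wd a p.1 v + v, mem_Fx.2 fun y hy => ?_, fun e' => e ((add_eq_zero' K).1 e')⟩
      rcases List.mem_cons.1 hy with rfl | hy
      · rw [map_add, ← wd_append_apply, ha.rel _ _ h2, wd_flat hv, add_comm]
      · obtain ⟨t, ht, rfl⟩ := List.getElem_of_mem hy
        have e1 := ha.rel _ _ (h3 t (List.mem_range.2 (by rwa [List.length_map] at ht)))
        rw [List.getD_eq_getElem _ _ ht] at e1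
        rw [map_add, ← wd_append_apply, e1, wd_append_apply, wd_flat hv, mem_Fx.1 hv _ hy]

theorem pow_hom {f : V →ₗ[K] V'} {g : End K V} {g' : End K V'} (h : ∀ v, f (g v) = g' (f v)) (n : ℕ) (v : V) :
    f ((g ^ n) v) = (g' ^ n) (f v) := by
  induction n with
  | zero => rfl
  | succ n ih => rw [pow_succ', pow_succ', End.mul_apply, End.mul_apply, h, ih]

theorem pow_fix {g : End K V} {v : V} (h : g v = v) (n : ℕ) : (g ^ n) v = v := by
  induction n with
  | zero => rfl
  | succ n ih => rw [pow_succ, End.mul_apply, h, ih]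

/-- the element acts nilpotently -/
def Nil (a : ℕ → End K V) (e : Ex) : Prop := ∃ n : ℕ, ∀ v, (el a e ^ n) v = 0

theorem Nil.of_inj {a : ℕ → End K V} {b : ℕ → End K V'} {f : V →ₗ[K] V'} (h : Hom a b f) (hf : Function.Injective f)
    {e : Ex} (hb : Nil b e) : Nil a e :=
  hb.imp fun n hn v => hf (by rw [pow_hom (h.el e), hn, map_zero])

theorem Nil.of_surj {a : ℕ → End K V} {b : ℕ → End K V'} {f : V →ₗ[K] V'} (h : Hom a b f) (hf : Function.Surjective f)
    {e : Ex} (ha : Nil a e) : Nil b e :=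
  ha.imp fun n hn v => by
    obtain ⟨v, rfl⟩ := hf v
    rw [← pow_hom (h.el e), hn, map_zero]

theorem Nil.fix {a : ℕ → End K V} {e : Ex} (h : Nil a e) {v : V} (hv : el a e v = v) : v = 0 := by
  obtain ⟨n, hn⟩ := h
  rw [← pow_fix hv n, hn]

theorem Nil.ext {a : ℕ → End K V} {b : ℕ → End K V'} {f : V →ₗ[K] V'} (h : Hom a b f) {e : Ex} (ha : Nil a e)
    (hq : Nil (quoOp b _ h.inv_range) e) : Nil b e := by
  obtain ⟨n, hn⟩ := ha
  obtain ⟨m, hm⟩ := hq
  refine ⟨n + m, fun v => ?_⟩
  have h1 := hm ((LinearMap.range f).mkQ v)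
  rw [← pow_hom ((hom_quo b _ h.inv_range).el e)] at h1
  obtain ⟨x, hx⟩ := (Submodule.Quotient.mk_eq_zero _).1 h1
  rw [pow_add, End.mul_apply, ← hx, ← pow_hom (h.el e), hn, map_zero]

/-- a vector that is fixed modulo fixed vectors by an operator of odd order is fixed -/
theorem fix_of_odd [CharP K 2] {g : End K V} {n : ℕ} (hn : Odd n) (hg : g ^ n = 1) {v c : V} (h1 : g v = v + c) (h2 : g c = c) :
    g v = v := by
  have key : ∀ m : ℕ, (g ^ m) v = v + m • c := fun m => by
    induction m with
    | zero => rw [zero_smul, add_zero]; rfl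
    | succ m ih => rw [pow_succ', End.mul_apply, ih, map_add, h1, map_nsmul, h2, succ_nsmul']; abel
  have h3 := key n
  rw [hg, odd_smul K hn, End.one_apply] at h3
  rw [h1, ← h3]

end Basic

section Exact

variable {A V B : Type*} [AddCommGroup A] [Module K A] [AddCommGroup V] [Module K V] [AddCommGroup B] [Module K B]

/-- a left exact triple of subspaces -/
theorem finrank_le_of_exact [FiniteDimensional K A] [FiniteDimensional K V] [FiniteDimensional K B]
    (ι : A →ₗ[K] V) (π : V →ₗ[K] B) (SA : Submodule K A) (SV : Submodule K V) (SB : Submodule K B)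
    (h1 : ∀ v ∈ SV, π v ∈ SB) (h2 : ∀ v ∈ SV, π v = 0 → ∃ x ∈ SA, ι x = v) :
    finrank K SV ≤ finrank K SA + finrank K SB := by
  have e := LinearMap.finrank_range_add_finrank_ker (π.restrict h1)
  have e1 : finrank K (LinearMap.range (π.restrict h1)) ≤ finrank K SB := Submodule.finrank_le _
  have e2 : finrank K (LinearMap.ker (π.restrict h1)) ≤ finrank K SA := by
    rw [← Submodule.finrank_map_subtype_eq]
    refine le_trans (Submodule.finrank_mono ?_) (Submodule.finrank_map_le ι SA)
    rintro _ ⟨v, hv, rfl⟩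
    exact h2 v v.2 (congrArg Subtype.val (LinearMap.mem_ker.1 hv))
  omega

/-- an exact triple of subspaces -/
theorem finrank_ge_of_exact [FiniteDimensional K A] [FiniteDimensional K V] [FiniteDimensional K B]
    (ι : A →ₗ[K] V) (π : V →ₗ[K] B) (SA : Submodule K A) (SV : Submodule K V) (SB : Submodule K B)
    (hι : Function.Injective ι) (h0 : ∀ x, π (ι x) = 0) (h1 : ∀ v ∈ SV, π v ∈ SB) (h2 : ∀ x ∈ SA, ι x ∈ SV)
    (h3 : ∀ y ∈ SB, ∃ v ∈ SV, π v = y) : finrank K SA + finrank K SB ≤ finrank K SV := by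
  have e := LinearMap.finrank_range_add_finrank_ker (π.restrict h1)
  have e1 : LinearMap.range (π.restrict h1) = ⊤ := by
    rw [eq_top_iff]
    rintro ⟨y, hy⟩ _
    obtain ⟨v, hv, rfl⟩ := h3 y hy
    exact ⟨⟨v, hv⟩, rfl⟩
  have e2 : finrank K SA ≤ finrank K (LinearMap.ker (π.restrict h1)) := by
    rw [← Submodule.finrank_map_subtype_eq, ← LinearEquiv.finrank_eq (Submodule.equivMapOfInjective ι hι SA).symm]
    refine Submodule.finrank_mono ?_
    rintro _ ⟨x, hx, rfl⟩
    exact ⟨⟨ι x, h2 x hx⟩, LinearMap.mem_ker.2 (Subtype.ext (h0 x)), rfl⟩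
  rw [e1, finrank_top] at e
  omega

/-- a short exact sequence of families -/
structure Ses (a : ℕ → End K A) (v : ℕ → End K V) (b : ℕ → End K B) (ι : A →ₗ[K] V) (π : V →ₗ[K] B) : Prop where
  hi : Hom a v ι
  hp : Hom v b π
  inj : Function.Injective ι
  surj : Function.Surjective π
  ex : ∀ x, π x = 0 ↔ ∃ y, ι y = x

theorem ses_sub (a : ℕ → End K V) (W : Submodule K V) (h : Inv a W) : Ses (subOp a W h) a (quoOp a W h) W.subtype W.mkQ :=
  ⟨hom_sub a W h, hom_quo a W h, W.injective_subtype, W.mkQ_surjective, fun x =>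
    (Submodule.Quotient.mk_eq_zero W).trans ⟨fun hx => ⟨⟨x, hx⟩, rfl⟩, fun ⟨y, hy⟩ => hy ▸ y.2⟩⟩

theorem ses_range {a : ℕ → End K A} {v : ℕ → End K V} {ι : A →ₗ[K] V} (h : Hom a v ι) (hι : Function.Injective ι) :
    Ses a v (quoOp v _ h.inv_range) ι (LinearMap.range ι).mkQ :=
  ⟨h, hom_quo v _ _, hι, Submodule.mkQ_surjective _, fun _ => Submodule.Quotient.mk_eq_zero _⟩

theorem Ses.subF {a : ℕ → End K A} {v : ℕ → End K V} {b : ℕ → End K B} {ι : A →ₗ[K] V} {π : V →ₗ[K] B}
    (h : Ses a v b ι π) (zs : List (List ℕ)) : Ses (subF a zs) (subF v zs) (subF b zs) ι π :=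
  ⟨h.hi.subF zs, h.hp.subF zs, h.inj, h.surj, h.ex⟩

variable [FiniteDimensional K A] [FiniteDimensional K V] [FiniteDimensional K B]

theorem Ses.kd_le {a : ℕ → End K A} {v : ℕ → End K V} {b : ℕ → End K B} {ι : A →ₗ[K] V} {π : V →ₗ[K] B}
    (h : Ses a v b ι π) (E : List Ex) : kd v E ≤ kd a E + kd b E := by
  refine finrank_le_of_exact ι π _ _ _ (fun x hx => h.hp.mem_Kr hx) fun x hx h0 => ?_
  obtain ⟨y, rfl⟩ := (h.ex x).1 h0
  exact ⟨y, h.hi.mem_Kr_of h.inj hx, rfl⟩

omit [FiniteDimensional K A] in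
theorem Hom.kd_le {a : ℕ → End K A} {v : ℕ → End K V} {ι : A →ₗ[K] V} (h : Hom a v ι) (hι : Function.Injective ι)
    (E : List Ex) : kd a E ≤ kd v E :=
  LinearMap.finrank_le_finrank_of_injective (f := ι.restrict fun _ hx => h.mem_Kr (E := E) hx)
    fun _ _ e => Subtype.ext (hι (congrArg Subtype.val e))

omit [FiniteDimensional K A] [FiniteDimensional K V] [FiniteDimensional K B] in
/-- fixed vectors of an operator of odd order can be lifted -/
theorem lift_fix [CharP K 2] {π : V →ₗ[K] B} {g : End K V} {g' : End K B} (h : ∀ v, π (g v) = g' (π v)) {n : ℕ} (hn : Odd n)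
    (hg : g ^ n = 1) (hπ : Function.Surjective π) {y : B} (hy : g' y = y) : ∃ v, g v = v ∧ π v = y := by
  obtain ⟨v, rfl⟩ := hπ y
  refine ⟨∑ i ∈ Finset.range n, (g ^ i) v, ?_, ?_⟩
  · rw [map_sum]
    have e1 := Finset.sum_range_succ (fun i => (g ^ i) v) n
    have e2 := Finset.sum_range_succ' (fun i => (g ^ i) v) n
    rw [hg] at e1
    rw [pow_zero, e1] at e2
    have e3 := add_right_cancel e2
    rw [e3]
    refine Finset.sum_congr rfl fun i _ => ?_
    rw [pow_succ', End.mul_apply]
  · rw [map_sum]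
    have e : ∀ i, π ((g ^ i) v) = π v := fun i => by rw [pow_hom h, pow_fix hy]
    rw [Finset.sum_congr rfl fun i _ => e i, Finset.sum_const, Finset.card_range, odd_smul K hn]

theorem Ses.kd_fe [CharP K 2] {a : ℕ → End K A} {v : ℕ → End K V} {b : ℕ → End K B} {ι : A →ₗ[K] V} {π : V →ₗ[K] B}
    (h : Ses a v b ι π) {w : List ℕ} {n : ℕ} (hn : Odd n) (hg : wd v w ^ n = 1) :
    kd v [fe w] = kd a [fe w] + kd b [fe w] := by
  refine le_antisymm (h.kd_le _) (finrank_ge_of_exact ι π _ _ _ h.inj (fun x => (h.ex _).2 ⟨x, rfl⟩)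
    (fun x hx => h.hp.mem_Kr hx) (fun x hx => h.hi.mem_Kr hx) fun y hy => ?_)
  obtain ⟨x, h1, h2⟩ := lift_fix (h.hp.wd w) hn hg h.surj (mem_fe.1 hy)
  exact ⟨x, mem_fe.2 h1, h2⟩

omit [FiniteDimensional K V] in
theorem fox_inner [CharP K 2] {a : ℕ → End K V} {g h : List ℕ} {v : V} (hv : wd a g v = v) (w : List Bool) :
    el (subF a [g, h]) (foxE w) (wd a h v + v) = wd a (flat2 g h w) v + v := by
  induction w with
  | nil => exact (add_self' K v).symm
  | cons b w ih =>
    have e0 : subF a [g, h] 0 = wd a g := rfl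
    have e1 : subF a [g, h] 1 = wd a h := rfl
    cases b with
    | false =>
      have e : foxE (false :: w) = .mul (.w [0]) (foxE w) := rfl
      have e' : flat2 g h (false :: w) = g ++ flat2 g h w := rfl
      rw [e, e', el_mul, el_w, wd_single, End.mul_apply, ih, e0, map_add, hv, wd_append_apply]
    | true =>
      have e : foxE (true :: w) = .add (.w []) (.mul (.w [1]) (foxE w)) := rfl
      have e' : flat2 g h (true :: w) = h ++ flat2 g h w := rfl
      rw [e, e', el_add, el_mul, el_w, el_w, wd_single, LinearMap.add_apply, End.mul_apply, ih, e1, map_add (wd a h),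
        wd_append_apply, wd_nil_apply]
      have := add_self' K (wd a h v)
      calc _ = wd a h (wd a (flat2 g h w) v) + v + (wd a h v + wd a h v) := by abel
        _ = _ := by rw [this, add_zero]

/-- the relators hold, and the two words generate -/
def foxOk (ok : List ℕ → List ℕ → Bool) (k : ℕ) (g h : List ℕ) (R : List (List Bool)) (c : List (List ℕ)) : Bool :=
  (R.all fun w => ok (flat2 g h w) []) && (List.range k).all fun j => ok [j] (flat [g, h] (c.getD j []))

/-- the inner derivations -/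
theorem kd_fox [CharP K 2] {ok : List ℕ → List ℕ → Bool} {k0 k : ℕ} {a : ℕ → End K V} (ha : Good ok k0 a) {g h : List ℕ}
    {R : List (List Bool)} {c : List (List ℕ)} (hc : foxOk ok k g h R c = true) :
    kd a [fe g] ≤ finrank K (Fx a (sing k)) + kd (subF a [g, h]) (R.map foxE) := by
  rw [foxOk, Bool.and_eq_true, List.all_eq_true, List.all_eq_true] at hc
  refine finrank_le_of_exact LinearMap.id (el a (fe h)) _ _ _ (fun v hv => ?_) fun v hv h0 => ⟨v, ?_, rfl⟩
  · rw [mem_Kr, List.forall_mem_map]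
    intro w hw
    rw [el_fe, fox_inner (mem_fe.1 hv), ha.rel _ _ (hc.1 w hw), wd_nil_apply, add_self' K]
  · have h1 : v ∈ Fx a [g, h] := mem_Fx.2 (List.forall_mem_cons.2 ⟨mem_fe.1 hv,
      List.forall_mem_singleton.2 (mem_fe.1 (mem_Kr_one.2 h0))⟩)
    refine mem_Fx_sing.2 fun j hj => ?_
    rw [← wd_single a j, ha.rel _ _ (hc.2 j (List.mem_range.2 hj)), wd_flat h1]

/-- the fixed vectors in the orthogonal of an invariant subspace -/
theorem kd_perp [CharP K 2] {a : ℕ → End K V} (β : LinearMap.BilinForm K V) (h1 : β.Nondegenerate)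
    {N : Submodule K V} (hN : Inv a N) (hN' : Inv a (β.orthogonal N)) {w : List ℕ} {n : ℕ} (hn : Odd n)
    (hg : wd a w ^ n = 1) (hβ : ∀ x y, β (wd a w x) (wd a w y) = β x y) :
    kd (subOp a _ hN') [fe w] + kd (subOp a N hN) [fe w] = kd a [fe w] := by
  have e1 := (ses_sub a N hN).kd_fe hn hg
  have e2 : (Kr (subOp a _ hN') [fe w]).map (β.orthogonal N).subtype =
      β.orthogonal ((LinearMap.range (el (quoOp a N hN) (fe w))).comap N.mkQ) := by
    have hs : Function.Surjective (wd a w) := fun y => by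
      obtain ⟨m, rfl⟩ := hn
      exact ⟨(wd a w ^ (2 * m)) y, by rw [← End.mul_apply, ← pow_succ', hg]; rfl⟩
    ext x
    constructor
    · rintro ⟨y, hy, rfl⟩ t ⟨s, hs'⟩
      obtain ⟨s, rfl⟩ := N.mkQ_surjective s
      rw [← (hom_quo a N hN).el] at hs'
      have h3 : el a (fe w) s - t ∈ N := (Submodule.Quotient.eq N).1 hs'
      have h4 : wd a w y = y := ((hom_sub a _ hN').wd w y).symm.trans (congrArg Subtype.val (mem_fe.1 hy))
      have h5 : β (el a (fe w) s - t) y = 0 := y.2 _ h3
      have h6 : β (el a (fe w) s) y = 0 := by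
        rw [el_fe, map_add, LinearMap.add_apply]
        conv_lhs => enter [1]; rw [← h4]
        rw [hβ, add_self' K]
      rw [map_sub, LinearMap.sub_apply, h6, zero_sub, neg_eq_zero] at h5
      exact h5
    · intro hx
      have h3 : x ∈ β.orthogonal N := fun t ht => hx t ⟨0, by
        rw [map_zero]; exact ((Submodule.Quotient.mk_eq_zero N).2 ht).symm⟩
      refine ⟨⟨x, h3⟩, mem_fe.2 (Subtype.ext (((hom_sub a _ hN').wd w ⟨x, h3⟩).trans ?_)), rfl⟩
      refine (add_eq_zero' K).1 (h1.2 _ fun t => ?_)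
      obtain ⟨t, rfl⟩ := hs t
      have h4 : β (el a (fe w) t) x = 0 := hx _ ⟨N.mkQ t, ((hom_quo a N hN).el _ t).symm⟩
      rw [el_fe, map_add, LinearMap.add_apply] at h4
      rw [map_add, Submodule.subtype_apply, hβ, add_comm]
      exact h4
  have e3 := LinearMap.BilinForm.finrank_orthogonal h1 ((LinearMap.range (el (quoOp a N hN) (fe w))).comap N.mkQ)
  rw [← e2, Submodule.finrank_map_subtype_eq] at e3
  have e4 := LinearMap.finrank_range_add_finrank_ker (el (quoOp a N hN) (fe w))
  have e5 : LinearMap.ker (el (quoOp a N hN) (fe w)) = Kr (quoOp a N hN) [fe w] := Submodule.ext fun _ => mem_Kr_one.symm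
  have e6 := Submodule.finrank_quotient_add_finrank N
  have e7 : finrank K ((LinearMap.range (el (quoOp a N hN) (fe w))).comap N.mkQ) =
      finrank K (⊤ : Submodule K N) + finrank K (LinearMap.range (el (quoOp a N hN) (fe w))) :=
    le_antisymm (finrank_le_of_exact N.subtype N.mkQ _ _ _ (fun _ hx => hx) fun x _ h0 =>
        ⟨⟨x, (Submodule.Quotient.mk_eq_zero N).1 h0⟩, trivial, rfl⟩)
      (finrank_ge_of_exact N.subtype N.mkQ _ _ _ N.injective_subtype (fun x => (Submodule.Quotient.mk_eq_zero N).2 x.2)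
        (fun _ hx => hx) (fun x _ => ⟨0, by rw [map_zero]; exact ((Submodule.Quotient.mk_eq_zero N).2 x.2).symm⟩)
        fun y hy => by
          obtain ⟨x, rfl⟩ := N.mkQ_surjective y
          exact ⟨x, hy, rfl⟩)
  rw [finrank_top] at e7
  rw [e5] at e4
  have e8 := Submodule.finrank_le ((LinearMap.range (el (quoOp a N hN) (fe w))).comap N.mkQ)
  unfold kd at e1 ⊢
  omega

end Exact

end Cfsg.Agent.E8A.Mc
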