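import Cfsg.Agent.E8A.Mc.Cert

/-!
# A module machine in characteristic two: composition factors (helper42)

* `Cls`, `Sol`, `Tab`, `sol` : the invariants of a family in terms of multiplicities;
* `soc` : sums of copies of a simple model in the quotient by the fixed space, and duality;
* `cenOk`, `fitting` : central elements.
-/

set_option autoImplicit false

namespace Cfsg.Agent.E8A.Mc

open Module

universe u

/-- the invariants -/
structure Cls where
  /-- the words of the elements of odd order, with the orders -/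
  cl : List (List ℕ × ℕ)
  /-- the left exact invariants -/
  sb : List (List (List ℕ) × List Ex)

/-- the `i`-th word -/
def Cls.w (C : Cls) (i : ℕ) : List ℕ := (C.cl.getD i ([], 1)).1

/-- the orders are odd and accepted -/
def Cls.chk (C : Cls) (ok : List ℕ → List ℕ → Bool) (k : ℕ) : Bool :=
  C.cl.all fun p => (p.2 % 2 == 1) && ok (wpow p.1 p.2) [] && ltW k p.1

/-- an entry of a table -/
def en (F : List (List ℕ)) (J i : ℕ) : ℕ := (F.getD J []).getD i 0

/-- the check of the table of invariants -/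
noncomputable def tabOk (C : Cls) (M : List (ℕ × List ℕ)) (r : ℕ) (F Z : List (List ℕ)) (ρ : Ex) (nl : ℕ → Bool) : Bool :=
  allN r fun J => force (md M J) fun d => forceL (ms M J) fun S => Nat.blt 0 d &&
    (allN C.cl.length fun i => Nat.beq (Nat.add (rkE d S [fe (C.w i)]) (en F J i)) d) &&
    (allN C.sb.length fun i => forceL ((C.sb.getD i ([], [])).1.map (evW d S)) fun S' =>
      Nat.ble d (Nat.add (rkE d S' (C.sb.getD i ([], [])).2) (en Z J i))) &&
    (!nl J || force (evE d S ρ) fun R => Nat.beq (mul d R R) 0)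

/-- a sum of words commutes with the letters -/
noncomputable def cenOk (ok : List ℕ → List ℕ → Bool) (k : ℕ) (L : List (List ℕ)) (π : List (List ℕ)) : Bool :=
  allN k fun j => (π.getD j []).isPerm (List.range L.length) &&
    (L.zip (π.getD j [])).all fun p => ok (j :: p.1) (nthW L p.2 ++ [j])

theorem nthW_eq (S : List (List ℕ)) (j : ℕ) : nthW S j = S.getD j [] := by
  induction S generalizing j with
  | nil => rfl
  | cons x S ih =>
    cases j with
    | zero => rfl
    | succ j => exact ih j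

variable {K : Type u} [Field K]

section

variable {V : Type*} [AddCommGroup V] [Module K V]

/-- the dimension of the fixed space of the `i`-th element -/
noncomputable def Cls.f (C : Cls) (a : ℕ → End K V) (i : ℕ) : ℕ := kd a [fe (C.w i)]

/-- the `i`-th left exact invariant -/
noncomputable def Cls.z (C : Cls) (a : ℕ → End K V) (i : ℕ) : ℕ := kd (subF a (C.sb.getD i ([], [])).1) (C.sb.getD i ([], [])).2

theorem Cls.ord {C : Cls} {ok : List ℕ → List ℕ → Bool} {k : ℕ} (hC : C.chk ok k = true) {k0 : ℕ} {a : ℕ → End K V}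
    (ha : Good ok k0 a) {i : ℕ} (hi : i < C.cl.length) : ltW k (C.w i) = true ∧ ∃ n, Odd n ∧ wd a (C.w i) ^ n = 1 := by
  rw [Cls.w, List.getD_eq_getElem _ _ hi]
  have h1 := List.all_eq_true.1 hC _ (List.getElem_mem hi)
  rw [Bool.and_eq_true, Bool.and_eq_true, beq_iff_eq] at h1
  refine ⟨h1.2, _, Nat.odd_iff.2 h1.1.1, ?_⟩
  rw [← wd_wpow, ha.rel _ _ h1.1.2, wd_nil]

theorem kd_nil [CharP K 2] (a : ℕ → End K V) : kd a [fe []] = finrank K V := by
  have : Kr a [fe []] = ⊤ := eq_top_iff.2 fun v _ => mem_fe.2 rfl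
  rw [kd, this, finrank_top]

/-- the invariants are those of the multiplicities `n` -/
structure Sol (C : Cls) (r : ℕ) (F Z : List (List ℕ)) (ρ : Ex) (nl : ℕ → Bool) (a : ℕ → End K V) (n : ℕ → ℕ) : Prop where
  f : ∀ i < C.cl.length, C.f a i = ∑ J ∈ Finset.range r, n J * en F J i
  z : ∀ i < C.sb.length, C.z a i ≤ ∑ J ∈ Finset.range r, n J * en Z J i
  nil : (∀ J < r, nl J = false → n J = 0) → Nil a ρ

variable (K) in
/-- the invariants of the models -/
def Tab (C : Cls) (M : List (ℕ × List ℕ)) (r : ℕ) (F Z : List (List ℕ)) (ρ : Ex) (nl : ℕ → Bool) : Prop :=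
  ∀ J < r, 0 < md M J ∧ (∀ i < C.cl.length, C.f (ops K (md M J) (ms M J)) i = en F J i) ∧
    (∀ i < C.sb.length, C.z (ops K (md M J) (ms M J)) i ≤ en Z J i) ∧ (nl J = true → Nil (ops K (md M J) (ms M J)) ρ)

theorem tab_sound [CharP K 2] {C : Cls} {M : List (ℕ × List ℕ)} {r : ℕ} {F Z : List (List ℕ)} {ρ : Ex} {nl : ℕ → Bool}
    (h : tabOk C M r F Z ρ nl = true) : Tab K C M r F Z ρ nl := fun J hJ => by
  have h1 := allN_spec h hJ
  rw [force_eq, forceL_eq, force_eq, Bool.and_eq_true, Bool.and_eq_true, Bool.and_eq_true, Nat.blt_eq] at h1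
  obtain ⟨⟨⟨h2, h3⟩, h4⟩, h5⟩ := h1
  refine ⟨h2, fun i hi => ?_, fun i hi => ?_, fun e => ⟨2, fun v => ?_⟩⟩
  · have e1 : rkE _ _ [fe (C.w i)] + en F J i = md M J := Nat.eq_of_beq_eq_true (allN_spec h3 hi)
    have e2 := kd_ops (K := K) (md M J) (ms M J) [fe (C.w i)]
    rw [Cls.f]; omega
  · have e1 := allN_spec h4 hi
    rw [forceL_eq, Nat.ble_eq, Nat.add_eq] at e1
    have e2 := kd_ops (K := K) (md M J) ((C.sb.getD i ([], [])).1.map (evW (md M J) (ms M J))) (C.sb.getD i ([], [])).2
    rw [ops_map] at e2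
    rw [Cls.z]; omega
  · rw [e, Bool.not_true, Bool.false_or] at h5
    rw [pow_two, ← lin_evE, ← lin_mul, Nat.eq_of_beq_eq_true h5, lin_zero]; rfl

theorem central {ok : List ℕ → List ℕ → Bool} {k : ℕ} {L π : List (List ℕ)} (h : cenOk ok k L π = true) {a : ℕ → End K V}
    (ha : Good ok k a) (j : ℕ) : a j * el a (sw L) = el a (sw L) * a j := by
  rcases lt_or_ge j k with hj | hj
  · have h1 := allN_spec h hj
    rw [Bool.and_eq_true, List.isPerm_iff, List.all_eq_true] at h1
    have e1 : (L.zip (π.getD j [])).map Prod.fst = L := List.map_fst_zip (by rw [h1.1.length_eq, List.length_range])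
    have e2 : (L.zip (π.getD j [])).map Prod.snd = π.getD j [] := List.map_snd_zip (by rw [h1.1.length_eq, List.length_range])
    have e3 : (List.range L.length).map (nthW L) = L := List.ext_getElem (by rw [List.length_map, List.length_range])
      fun i _ hi => by rw [List.getElem_map, List.getElem_range, nthW_eq, List.getD_eq_getElem _ _ hi]
    rw [el_sw, ← List.sum_map_mul_left, ← List.sum_map_mul_right]
    conv_lhs => rw [← e1]
    conv_rhs => rw [← e3, List.map_map, ← (h1.1.map _).sum_eq, ← e2]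
    rw [List.map_map, List.map_map]
    refine congrArg List.sum (List.map_congr_left fun p hp => ?_)
    have := ha.rel _ _ (h1.2 p hp)
    rwa [wd_cons, wd_append, wd_single] at this
  · rw [ha.out j hj, zero_mul, mul_zero]

theorem fitting [FiniteDimensional K V] {a : ℕ → End K V} {e : Ex} (h : ∀ j, a j * el a e = el a e * a j) :
    ∃ (W : Submodule K V) (hW : Inv a W), Nil (subOp a W hW) e ∧ Function.Surjective (el (quoOp a W hW) e) := by
  have hW : Inv a (LinearMap.ker (el a e ^ finrank K V)) := fun j v hv => by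
    rw [LinearMap.mem_ker] at hv ⊢
    rw [← pow_hom (f := a j) (g := el a e) (fun x => LinearMap.congr_fun (h j) x), hv, map_zero]
  refine ⟨_, hW, ⟨finrank K V, fun v => Subtype.ext ((pow_hom ((hom_sub a _ hW).el e) _ v).trans v.2)⟩,
    LinearMap.injective_iff_surjective.1 ((injective_iff_map_eq_zero _).2 fun v hv => ?_)⟩
  obtain ⟨v, rfl⟩ := Submodule.mkQ_surjective _ v
  rw [← (hom_quo a _ hW).el] at hv
  have h1 : v ∈ LinearMap.ker (el a e ^ (finrank K V + 1)) := by
    rw [LinearMap.mem_ker, pow_succ, End.mul_apply]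
    exact (Submodule.Quotient.mk_eq_zero _).1 hv
  rw [Module.End.ker_pow_eq_ker_pow_finrank_of_le (Nat.le_succ _)] at h1
  exact (Submodule.Quotient.mk_eq_zero _).2 h1

/-- the quotient by the fixed space has no fixed vectors -/
theorem fx_quo [CharP K 2] {ok : List ℕ → List ℕ → Bool} {k : ℕ} {a : ℕ → End K V} (ha : Good ok k a)
    (h : (allN k fun j => ok (wpow [j] 15) []) = true) : Fx (quoOp a _ (inv_Fx ha.out)) (sing k) = ⊥ := by
  rw [eq_bot_iff]
  intro v hv
  obtain ⟨v, rfl⟩ := Submodule.mkQ_surjective _ v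
  refine (Submodule.Quotient.mk_eq_zero _).2 (mem_Fx_sing.2 fun j hj => ?_)
  have h1 : a j v - v ∈ Fx a (sing k) := (Submodule.Quotient.eq _).1 (mem_Fx_sing.1 hv j hj)
  have h2 := ha.rel _ _ (allN_spec h hj)
  rw [wd_wpow, wd_single, wd_nil] at h2
  exact fix_of_odd (by decide) h2 (add_sub_cancel v (a j v)).symm (mem_Fx_sing.1 h1 j hj)

/-- an invariant nondegenerate form -/
structure Frm (k : ℕ) (a : ℕ → End K V) (β : LinearMap.BilinForm K V) : Prop where
  nd : β.Nondegenerate
  inv : ∀ j < k, ∀ x y, β (a j x) (a j y) = β x y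

theorem Frm.wd {k : ℕ} {a : ℕ → End K V} {β : LinearMap.BilinForm K V} (h : Frm k a β) {w : List ℕ} (hw : ltW k w = true)
    (x y : V) : β (wd a w x) (wd a w y) = β x y := by
  induction w with
  | nil => rfl
  | cons j w ih =>
    obtain ⟨h1, h2⟩ := ltW_cons hw
    rw [wd_cons_apply, wd_cons_apply, h.inv j h1, ih h2]

theorem Frm.perp [FiniteDimensional K V] {k : ℕ} {a : ℕ → End K V} {β : LinearMap.BilinForm K V} (h : Frm k a β)
    (ho : ∀ j, k ≤ j → a j = 0) {N : Submodule K V} (hN : Inv a N) : Inv a (β.orthogonal N) := fun j x hx t ht => by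
  rcases lt_or_ge j k with hj | hj
  · have e : Function.Injective (subOp a N hN j) := (injective_iff_map_eq_zero _).2 fun v hv =>
      Subtype.ext (h.nd.1 _ fun y => by
        rw [← h.inv j hj, show a j v = 0 from congrArg Subtype.val hv, map_zero, LinearMap.zero_apply])
    obtain ⟨s, hs⟩ := LinearMap.injective_iff_surjective.1 e ⟨t, ht⟩
    rw [← (show a j s = t from congrArg Subtype.val hs)]
    exact (h.inv j hj s x).trans (hx s s.2)
  · rw [ho j hj]; exact map_zero (β t)

end

variable [CharP K 2]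

theorem sol {C : Cls} {ok : List ℕ → List ℕ → Bool} {k : ℕ} (hC : C.chk ok k = true) {M : List (ℕ × List ℕ)} {r : ℕ}
    {F Z : List (List ℕ)} {ρ : Ex} {nl : ℕ → Bool} (hT : Tab K C M r F Z ρ nl) (m : ℕ → Prop)
    (P : ∀ (V : Type u) [AddCommGroup V] [Module K V], (ℕ → End K V) → Prop)
    (hq : ∀ (V : Type u) [AddCommGroup V] [Module K V] (a : ℕ → End K V) (W : Submodule K V) (hW : Inv a W),
      P V a → P (V ⧸ W) (quoOp a W hW))
    (hs : ∀ (V : Type u) [AddCommGroup V] [Module K V] [FiniteDimensional K V] (a : ℕ → End K V), Good ok k a → P V a →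
      (∃ v : V, v ≠ 0) → ∃ J < r, m J ∧ ∃ f : X K (md M J) →ₗ[K] V, Hom (ops K (md M J) (ms M J)) a f ∧ Function.Injective f)
    (V : Type u) [AddCommGroup V] [Module K V] [FiniteDimensional K V] (a : ℕ → End K V) (ha : Good ok k a) (hP : P V a) :
    ∃ n, (∀ J, ¬ m J → n J = 0) ∧ Sol C r F Z ρ nl a n := by
  obtain ⟨d, hd⟩ : ∃ d, finrank K V = d := ⟨_, rfl⟩
  induction d using Nat.strong_induction_on generalizing V with
  | _ d ih =>
    by_cases h0 : ∃ v : V, v ≠ 0
    · obtain ⟨J, hJ, hm, f, hf, hi⟩ := hs V a ha hP h0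
      obtain ⟨t0, t1, t2, t3⟩ := hT J hJ
      have e := Submodule.finrank_quotient_add_finrank (LinearMap.range f)
      rw [LinearMap.finrank_range_of_inj hi, Module.finrank_fin_fun] at e
      obtain ⟨n, g0, g⟩ := ih _ (by omega) _ (quoOp a _ hf.inv_range) (ha.quo _) (hq V a _ _ hP) rfl
      have es : ∀ G : ℕ → ℕ, ∑ I ∈ Finset.range r, (Pi.single J 1 + n : ℕ → ℕ) I * G I =
          G J + ∑ I ∈ Finset.range r, n I * G I := fun G => by
        rw [Finset.sum_congr rfl fun I _ => by rw [Pi.add_apply, add_mul], Finset.sum_add_distrib,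
          Finset.sum_eq_single J (fun b _ hb => by rw [Pi.single_eq_of_ne hb, zero_mul])
          (fun hb => absurd (Finset.mem_range.2 hJ) hb), Pi.single_eq_same, one_mul]
      refine ⟨Pi.single J 1 + n, fun I hI => ?_, fun i hi' => ?_, fun i hi' => ?_, fun h => ?_⟩
      · rw [Pi.add_apply, g0 I hI, Pi.single_eq_of_ne fun e : I = J => hI (e ▸ hm)]
      · obtain ⟨-, o, h1, h2⟩ := C.ord hC ha hi'
        rw [es fun I => en F I i, ← t1 i hi', ← g.f i hi']
        exact (ses_range hf hi).kd_fe h1 h2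
      · rw [es fun I => en Z I i]
        exact (((ses_range hf hi).subF _).kd_le _).trans (add_le_add (t2 i hi') (g.z i hi'))
      · refine Nil.ext hf (t3 ?_) (g.nil fun I hI e => ?_)
        · by_contra hc
          have := h J hJ (Bool.eq_false_iff.2 hc)
          rw [Pi.add_apply, Pi.single_eq_same] at this
          omega
        · have := h I hI e
          rw [Pi.add_apply] at this
          omega
    · have h1 : ∀ v : V, v = 0 := fun v => by_contra fun e => h0 ⟨v, e⟩
      have hz : ∀ S : Submodule K V, finrank K S = 0 := fun S => by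
        rw [Submodule.finrank_eq_zero, eq_bot_iff]; exact fun v _ => h1 v
      refine ⟨0, fun _ _ => rfl, fun i _ => ?_, fun i _ => ?_, fun _ => ⟨0, fun v => h1 _⟩⟩
      · rw [Cls.f, kd, hz, Finset.sum_eq_zero fun J _ => by rw [Pi.zero_apply, zero_mul]]
      · rw [Cls.z, kd, hz]; exact Nat.zero_le _

theorem soc_ind {C : Cls} {ok : List ℕ → List ℕ → Bool} {k : ℕ} (hC : C.chk ok k = true) {d : ℕ} {S : List ℕ} {θ : Ex}
    (hN : Nor K d S θ) (V : Type u) [AddCommGroup V] [Module K V] [FiniteDimensional K V] (a : ℕ → End K V) (ha : Good ok k a)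
    (hP : ∀ W : Submodule K V, (∀ f, Hom (ops K d S) a f → LinearMap.range f ≤ W) → W = ⊤) :
    ∃ m, (∀ i < C.cl.length, C.f a i = m * C.f (ops K d S) i) ∧ kd a [θ] ≤ m := by
  obtain ⟨n, hn⟩ : ∃ n, finrank K V = n := ⟨_, rfl⟩
  induction n using Nat.strong_induction_on generalizing V with
  | _ n ih =>
    by_cases h0 : ∃ f, Hom (ops K d S) a f ∧ f ≠ 0
    · obtain ⟨f, hf, h0⟩ := h0
      have hi := hN.inj hf h0
      have e := Submodule.finrank_quotient_add_finrank (LinearMap.range f)
      have := hN.pos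
      rw [LinearMap.finrank_range_of_inj hi, Module.finrank_fin_fun] at e
      obtain ⟨m, g1, g2⟩ := ih _ (by omega) _ (quoOp a _ hf.inv_range) (ha.quo _) (fun W hW => by
        have h1 := hP (W.comap (LinearMap.range f).mkQ) fun g hg => by
          rintro _ ⟨x, rfl⟩
          exact hW _ ((hom_quo a _ hf.inv_range).comp hg) ⟨x, rfl⟩
        rw [eq_top_iff]
        intro v _
        obtain ⟨v, rfl⟩ := Submodule.mkQ_surjective _ v
        exact (h1 ▸ Submodule.mem_top : v ∈ W.comap (LinearMap.range f).mkQ)) rfl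
      refine ⟨m + 1, fun i hi' => ?_, ?_⟩
      · obtain ⟨-, o, h1, h2⟩ := C.ord hC ha hi'
        rw [add_mul, one_mul, ← g1 i hi', add_comm]
        exact (ses_range hf hi).kd_fe h1 h2
      · have h1 := (ses_range hf hi).kd_le [θ]
        rw [hN.one] at h1
        omega
    · have h1 : (⊥ : Submodule K V) = ⊤ := hP ⊥ fun f hf => by
        rw [le_bot_iff, LinearMap.range_eq_bot]
        exact by_contra fun e => h0 ⟨f, hf, e⟩
      have hz : ∀ S : Submodule K V, finrank K S = 0 := fun S => by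
        rw [Submodule.finrank_eq_zero, eq_bot_iff, h1]; exact le_top
      exact ⟨0, fun i _ => by rw [Cls.f, kd, hz, zero_mul], by rw [kd, hz]⟩

theorem soc {C : Cls} {ok : List ℕ → List ℕ → Bool} {k : ℕ} (hC : C.chk ok k = true) {d : ℕ} {S : List ℕ} {θ : Ex}
    (hN : Nor K d S θ) {V : Type u} [AddCommGroup V] [Module K V] [FiniteDimensional K V] {a : ℕ → End K V} (ha : Good ok k a)
    {β : LinearMap.BilinForm K V} (hβ : Frm k a β) {U : Type*} [AddCommGroup U] [Module K U] [FiniteDimensional K U]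
    (Ψ : U →ₗ[K] (X K d →ₗ[K] V ⧸ Fx a (sing k))) (hΨ : ∀ c, Hom (ops K d S) (quoOp a _ (inv_Fx ha.out)) (Ψ c)) :
    ∃ m, finrank K U ≤ finrank K (LinearMap.ker Ψ) + m ∧ ∃ (N : Submodule K V) (h : Inv a N), ∀ i < C.cl.length,
      C.f (subOp a N h) i + finrank K (Fx a (sing k)) + m * C.f (ops K d S) i = C.f a i := by
  have hF := inv_Fx ha.out
  set R : Submodule K (V ⧸ Fx a (sing k)) := ⨆ c, LinearMap.range (Ψ c)
  have hR : Inv (quoOp a _ hF) R := fun j v hv => by
    have : R ≤ R.comap (quoOp a _ hF j) := iSup_le fun c x hx =>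
      Submodule.mem_iSup_of_mem c ((hΨ c).inv_range j x hx)
    exact this hv
  have hm : ∀ c x, Ψ c x ∈ R := fun c x => Submodule.mem_iSup_of_mem c ⟨x, rfl⟩
  obtain ⟨m, g1, g2⟩ := soc_ind hC hN R (subOp _ R hR) ((ha.quo hF).sub hR) fun W hW => by
    have h1 : R ≤ W.map R.subtype := iSup_le fun c => by
      rintro _ ⟨x, rfl⟩
      exact ⟨⟨_, hm c x⟩, hW ((Ψ c).codRestrict R (hm c)) (fun j v => Subtype.ext (hΨ c j v)) ⟨x, rfl⟩, rfl⟩
    rw [eq_top_iff]
    intro v _
    obtain ⟨y, hy, e⟩ := h1 v.2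
    rwa [← (Subtype.ext e : y = v)]
  have hN' : Inv a (R.comap (Fx a (sing k)).mkQ) := hR.comap (hom_quo a _ hF)
  refine ⟨m, ?_, _, hβ.perp ha.out hN', fun i hi => ?_⟩
  · have h1 := finrank_le_of_exact (LinearMap.ker Ψ).subtype ((Ψ.flip (bv K d 1)).codRestrict R fun c => hm c _) ⊤ ⊤
      (Kr (subOp _ R hR) [θ]) (fun c _ => (hom_sub _ R hR).mem_Kr_of R.injective_subtype ((hΨ c).mem_Kr hN.mem))
      fun c _ h0 => ⟨⟨c, by_contra fun e => bv_one_ne hN.pos (hN.inj (hΨ c) e
        ((show Ψ c (bv K d 1) = 0 from congrArg Subtype.val h0).trans (map_zero _).symm))⟩, trivial, rfl⟩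
    rw [finrank_top, finrank_top] at h1
    exact h1.trans (Nat.add_le_add_left g2 _)
  · obtain ⟨h0, o, h1, h2⟩ := C.ord hC ha hi
    obtain ⟨-, o', h1', h2'⟩ := C.ord hC (ha.sub hN') hi
    have hle : Fx a (sing k) ≤ R.comap (Fx a (sing k)).mkQ := fun v hv => by
      rw [Submodule.mem_comap, show (Fx a (sing k)).mkQ v = 0 from (Submodule.Quotient.mk_eq_zero _).2 hv]
      exact zero_mem _
    have hs : Ses (subOp a _ hF) (subOp a _ hN') (subOp _ R hR) (Submodule.inclusion hle)
        ((Fx a (sing k)).mkQ.restrict fun _ hv => hv) :=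
      ⟨fun _ _ => rfl, fun _ _ => rfl, Submodule.inclusion_injective hle, fun y => by
        obtain ⟨x, hx⟩ := Submodule.mkQ_surjective _ y.1
        exact ⟨⟨x, by rw [Submodule.mem_comap, hx]; exact y.2⟩, Subtype.ext hx⟩, fun x =>
        ⟨fun h => ⟨⟨x, (Submodule.Quotient.mk_eq_zero _).1 (congrArg Subtype.val h)⟩, rfl⟩, fun ⟨y, hy⟩ =>
          Subtype.ext ((Submodule.Quotient.mk_eq_zero _).2 (hy ▸ y.2))⟩⟩
    have e1 := hs.kd_fe h1' h2'
    have e2 := kd_perp β hβ.nd hN' (hβ.perp ha.out hN') h1 h2 (hβ.wd h0)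
    have e3 : Kr (subOp a _ hF) [fe (C.w i)] = ⊤ := eq_top_iff.2 fun v _ => mem_fe.2 (Subtype.ext
      (((hom_sub a _ hF).wd _ v).trans (wd_of_fix (mem_Fx_sing.1 v.2) h0)))
    have e4 := g1 i hi
    rw [kd, kd, e3, finrank_top] at e1
    unfold Cls.f kd at *
    omega

end Cfsg.Agent.E8A.Mc
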