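import Cfsg.Agent.E8A.Mc.Alt

/-!
# A module machine in characteristic two: simple submodules by induction from a subgroup (helper42)
-/

set_option autoImplicit false

namespace Cfsg.Agent.E8A.Mc

open Module

universe u

/-- the induced families of the first `r0` models of `M0` have blocks among the first `rr` models of `M` -/
noncomputable def upOk (ok : List ℕ → List ℕ → Bool) (k n : ℕ) (zs ts : List (List ℕ)) (tab : List (List (ℕ × List ℕ)))
    (M0 : List (ℕ × List ℕ)) (I : List (ℕ × ℕ × List ℕ)) (M : List (ℕ × List ℕ)) (rr J : ℕ) : Bool :=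
  indOk ok k n (md M0 J) (ms M0 J) zs ts tab (I.getD J (0, 0, [])).1 (I.getD J (0, 0, [])).2.1 M (I.getD J (0, 0, [])).2.2 &&
    ltW rr (I.getD J (0, 0, [])).2.2

/-- the element for Norton's test -/
def th (N : List (Ex × ℕ × List (List ℕ))) (J : ℕ) : Ex := (N.getD J (.z, 0, [])).1

/-- the first `r` models are simple -/
noncomputable def norAll (M : List (ℕ × List ℕ)) (r : ℕ) (G : List (List (ℕ × ℕ))) (N : List (Ex × ℕ × List (List ℕ))) : Bool :=
  allN r fun J => force (md M J) fun d => forceL (ms M J) fun S =>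
    norOk d S (th N J) (G.getD J []) (N.getD J (.z, 0, [])).2.1 (N.getD J (.z, 0, [])).2.2

/-- the element is not nilpotent on the quotients of the models from `r` to `rr` -/
noncomputable def badAll (M : List (ℕ × List ℕ)) (r rr : ℕ) (ρ : Ex) (G : List (List (ℕ × ℕ))) : Bool :=
  allN rr fun J => Nat.blt J r || force (md M J) fun d => forceL (ms M J) fun S => badOk d S ρ (G.getD J [])

variable {K : Type u} [Field K] [CharP K 2] {V : Type*} [AddCommGroup V] [Module K V]

theorem nor_all {M : List (ℕ × List ℕ)} {r : ℕ} {G : List (List (ℕ × ℕ))} {N : List (Ex × ℕ × List (List ℕ))}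
    (h : norAll M r G N = true) {J : ℕ} (hJ : J < r) : Nor K (md M J) (ms M J) (th N J) := by
  have h1 := allN_spec h hJ
  rw [force_eq, forceL_eq] at h1
  exact nor_sound h1

theorem bad_all {M : List (ℕ × List ℕ)} {r rr : ℕ} {ρ : Ex} {G : List (List (ℕ × ℕ))} (h : badAll M r rr ρ G = true) {J : ℕ}
    (h1 : r ≤ J) (h2 : J < rr) {a : ℕ → End K V} (ha : Nil a ρ) {f : X K (md M J) →ₗ[K] V}
    (hf : Hom (ops K (md M J) (ms M J)) a f) : f = 0 := by
  have h3 := allN_spec h h2
  rw [force_eq, forceL_eq, Bool.or_eq_true, Nat.blt_eq] at h3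
  exact bad_zero (h3.resolve_left (not_lt.2 h1)) ha hf

theorem up {ok : List ℕ → List ℕ → Bool} {k n : ℕ} {zs ts : List (List ℕ)} {tab : List (List (ℕ × List ℕ))}
    {M0 : List (ℕ × List ℕ)} {I : List (ℕ × ℕ × List ℕ)} {M : List (ℕ × List ℕ)} {r rr J : ℕ} {ρ : Ex}
    {G : List (List (ℕ × ℕ))} {N : List (Ex × ℕ × List (List ℕ))} (h1 : upOk ok k n zs ts tab M0 I M rr J = true)
    (h2 : norAll M r G N = true) (h3 : badAll M r rr ρ G = true) {a : ℕ → End K V} (ha : Good ok k a) (hn : Nil a ρ)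
    {f : X K (md M0 J) →ₗ[K] V} (hf : Hom (ops K (md M0 J) (ms M0 J)) (subF a zs) f) (h0 : f ≠ 0) :
    ∃ J < r, ∃ g : X K (md M J) →ₗ[K] V, Hom (ops K (md M J) (ms M J)) a g ∧ Function.Injective g := by
  rw [upOk, Bool.and_eq_true] at h1
  obtain ⟨J', g1, g, g2, g3⟩ := ind_split h1.1 ha hf h0
  rcases lt_or_ge J' r with e | e
  · exact ⟨J', e, g, g2, (nor_all h2 e).inj g2 g3⟩
  · exact absurd (bad_all h3 e (Nat.blt_eq.mp (List.all_eq_true.1 h1.2 J' g1)) hn g2) g3

omit [CharP K 2] in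
theorem ne_zero_of_inj {d : ℕ} (hd : 0 < d) {f : X K d →ₗ[K] V} (hf : Function.Injective f) : f ≠ 0 := fun e =>
  bv_one_ne hd (hf (by rw [e]; rfl))

omit [CharP K 2] in
theorem nil_z (a : ℕ → End K V) : Nil a .z := ⟨1, fun _ => rfl⟩

theorem kill_zero {n : ℕ} {S : List ℕ} {e : Ex} (hn : 0 < n) (h : Nat.beq (row n (evE n S e) 0) 0 = true)
    [FiniteDimensional K V] {a : ℕ → End K V} (ha : Function.Surjective (el a e)) {f : X K n →ₗ[K] V}
    (hf : Hom (ops K n S) a f) : ¬ Function.Injective f := fun hi => by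
  refine bv_one_ne hn (hi (LinearMap.injective_iff_surjective.2 ha ?_))
  rw [← hf.el, el_one hn, Nat.eq_of_beq_eq_true h, bv_zero, map_zero, map_zero]

omit [CharP K 2] in
theorem surj_quo {a : ℕ → End K V} {e : Ex} (ha : Function.Surjective (el a e)) (W : Submodule K V) (hW : Inv a W) :
    Function.Surjective (el (quoOp a W hW) e) := fun y => by
  obtain ⟨y, rfl⟩ := W.mkQ_surjective y
  obtain ⟨x, rfl⟩ := ha y
  exact ⟨W.mkQ x, ((hom_quo a W hW).el e x).symm⟩

theorem realised : True := by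
  have := @fe.eq_1; have := @fe.eq_def
  have := @sw.eq_1; have := @sw.eq_def
  have := @foxE.eq_1; have := @foxE.eq_def
  have := @flat.eq_1; have := @flat.eq_def
  have := @flat2.eq_1; have := @flat2.eq_def
  have := @wpow.eq_1; have := @wpow.eq_def
  have := @sing.eq_1; have := @sing.eq_def
  have := @ltW.eq_1; have := @ltW.eq_def
  have := @ltE.eq_1; have := @ltE.eq_def
  have := @chainOk.eq_1; have := @chainOk.eq_def
  have := @foxOk.eq_1; have := @foxOk.eq_def
  have := @force.eq_1; have := @force.eq_def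
  have := @forceL.eq_1; have := @forceL.eq_def
  have := @tb.eq_1; have := @tb.eq_def
  have := @nth.eq_1; have := @nth.eq_def
  have := @allN.eq_1; have := @allN.eq_def
  have := @row.eq_1; have := @row.eq_def
  have := @geo.eq_1; have := @geo.eq_def
  have := @mul.eq_1; have := @mul.eq_def
  have := @idT.eq_1; have := @idT.eq_def
  have := @evW.eq_1; have := @evW.eq_def
  have := @evE.eq_1; have := @evE.eq_def
  have := @elim.eq_1; have := @elim.eq_def
  have := @lg.eq_1; have := @lg.eq_def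
  have := @piv.eq_1; have := @piv.eq_def
  have := @rk.eq_1; have := @rk.eq_def
  have := @cat.eq_1; have := @cat.eq_def
  have := @rkE.eq_1; have := @rkE.eq_def
  have := @spinA.eq_1; have := @spinA.eq_def
  have := @spinOk.eq_1; have := @spinOk.eq_def
  have := @badOk.eq_1; have := @badOk.eq_def
  have := @norOk.eq_1; have := @norOk.eq_def
  have := @blkOk.eq_1; have := @blkOk.eq_def
  have := @md.eq_1; have := @md.eq_def
  have := @ms.eq_1; have := @ms.eq_def
  have := @blocksOk.eq_1; have := @blocksOk.eq_def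
  have := @nthW.eq_1; have := @nthW.eq_def
  have := @mkS.eq_1; have := @mkS.eq_def
  have := @letOk.eq_1; have := @letOk.eq_def
  have := @indOk.eq_1; have := @indOk.eq_def
  have := @Cls.w.eq_1; have := @Cls.w.eq_def
  have := @Cls.chk.eq_1; have := @Cls.chk.eq_def
  have := @en.eq_1; have := @en.eq_def
  have := @tabOk.eq_1; have := @tabOk.eq_def
  have := @cenOk.eq_1; have := @cenOk.eq_def
  have := @cy.eq_1; have := @cy.eq_def
  have := @stp.eq_1; have := @stp.eq_def
  have := @pk.eq_1; have := @pk.eq_def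
  have := @okA.eq_1; have := @okA.eq_def
  have := @gp.eq_1; have := @gp.eq_def
  have := @dig.eq_1; have := @dig.eq_def
  have := @upOk.eq_1; have := @upOk.eq_def
  have := @th.eq_1; have := @th.eq_def
  have := @norAll.eq_1; have := @norAll.eq_def
  have := @badAll.eq_1; have := @badAll.eq_def
  have := @bt.eq_1.{0}; have := @bt.eq_def.{0}
  have := @bv.eq_1.{0}; have := @bv.eq_def.{0}
  have := @bw.eq_1.{0}; have := @bw.eq_def.{0}
  have := @lin.eq_1.{0}; have := @lin.eq_def.{0}
  have := @ops.eq_1.{0}; have := @ops.eq_def.{0}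
  have := @co.eq_1.{0}; have := @co.eq_def.{0}
  have := @spL.eq_1.{0}; have := @spL.eq_def.{0}
  have := @inc.eq_1.{0}; have := @inc.eq_def.{0}
  have := @Tab.eq_1.{0}; have := @Tab.eq_def.{0}
  have := @wd.eq_1.{0, 0}; have := @wd.eq_def.{0, 0}
  have := @el.eq_1.{0, 0}; have := @el.eq_def.{0, 0}
  have := @Inv.eq_1.{0, 0}; have := @Inv.eq_def.{0, 0}
  have := @subOp.eq_1.{0, 0}; have := @subOp.eq_def.{0, 0}
  have := @quoOp.eq_1.{0, 0}; have := @quoOp.eq_def.{0, 0}
  have := @subF.eq_1.{0, 0}; have := @subF.eq_def.{0, 0}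
  have := @Kr.eq_1.{0, 0}; have := @Kr.eq_def.{0, 0}
  have := @kd.eq_1.{0, 0}; have := @kd.eq_def.{0, 0}
  have := @Fx.eq_1.{0, 0}; have := @Fx.eq_def.{0, 0}
  have := @Nil.eq_1.{0, 0}; have := @Nil.eq_def.{0, 0}
  have := @Van.eq_1.{0, 0}; have := @Van.eq_def.{0, 0}
  have := @ind0.eq_1.{0, 0}; have := @ind0.eq_def.{0, 0}
  have := @tv.eq_1.{0, 0}; have := @tv.eq_def.{0, 0}
  have := @Cls.f.eq_1.{0, 0}; have := @Cls.f.eq_def.{0, 0}
  have := @Cls.z.eq_1.{0, 0}; have := @Cls.z.eq_def.{0, 0}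
  have := @Hom.eq_1.{0, 0, 0}; have := @Hom.eq_def.{0, 0, 0}
  have := @subOp.congr_simp.{0, 0}; have := @quoOp.congr_simp.{0, 0}
  trivial

end Cfsg.Agent.E8A.Mc
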